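/-
A similarity `g` of multiplier `c` of a hyperbolic quadratic space of dimension `2m` preserves the two
classes of maximal totally singular subspaces iff `det g = c ^ m`.
-/
import Mathlib
import Cfsg.Prelude.Def_LieTypeDatum
import Cfsg.Agent.Lib.Orth.Parity
import Cfsg.Agent.Lib.Orth.HypBasis
import Cfsg.Agent.Lib.Orth.Forms
import Cfsg.Agent.Lib.QuadFn.PlusForm

set_option autoImplicit false

namespace Cfsg.Agent.Lib.OutO.Classes

open Matrix Cfsg QuadraticMap Module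
open Cfsg.Agent.Lib.Orth.Bridge Cfsg.Agent.Lib.Orth.Closure Cfsg.Agent.Lib.Orth.Spin
open Cfsg.Agent.Lib.Witt.Quadratic Cfsg.Agent.Lib.Orth.Refl Cfsg.Agent.Lib.Orth.Wall Cfsg.Agent.Lib.Orth.Gen
open Cfsg.Agent.Lib.Orth.Parity Cfsg.Agent.Lib.QuadFn.MaxSingular Cfsg.Agent.Lib.QuadFn.PlusForm
open Cfsg.Agent.Lib.Orth.HypBasis Cfsg.Agent.Lib.Classical.MatrixBridge

universe u v

section abstract

variable {K : Type*} [Field K] {V : Type*} [AddCommGroup V] [Module K V] [FiniteDimensional K V]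
  {f : LinearMap.BilinForm K V} {Q : V → K} (S : QSpace f Q) {m : ℕ} (hdim : finrank K V = 2 * m)

include S hdim in
/-- Any totally singular subspace of smaller dimension extends. -/
theorem exists_extend {U₀ U : Submodule K V} (hU₀ : TS Q U₀) (hU₀m : finrank K U₀ = m) (hU : TS Q U)
    (hlt : finrank K U < m) : ∃ W : Submodule K V, TS Q W ∧ U ≤ W ∧ W ≠ U := by
  have h1 := S.finrank_inf_orth hdim hU₀ hU₀m U
  have h3 : finrank K (U₀ ⊓ U : Submodule K V) < finrank K (U₀ ⊓ f.orthogonal U : Submodule K V) := by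
    omega
  have h4 : ¬ (U₀ ⊓ f.orthogonal U ≤ U₀ ⊓ U) := fun h =>
    absurd (Submodule.finrank_mono h) (by omega)
  obtain ⟨a, ha, ha'⟩ := SetLike.not_le_iff_exists.1 h4
  have haU : a ∉ U := fun h => ha' ⟨ha.1, h⟩
  refine ⟨U ⊔ Submodule.span K {a}, S.ts_sup_span hU ha.2 (hU₀ a ha.1), le_sup_left, ?_⟩
  intro h
  apply haU
  rw [← h]
  exact Submodule.mem_sup_right (Submodule.mem_span_singleton_self a)

include hdim in
/-- The parity core: composing with a similarity fixing a maximal totally singular space does not change the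
parity. -/
theorem parity_core (hS : QSpace f Q) {h e : V ≃ₗ[K] V} {M U : Submodule K V} (hM : TS Q M) (hMm : finrank K M = m)
    (hhM : M.map (h : V →ₗ[K] V) = M) (hts : ∀ W : Submodule K V, TS Q W → TS Q (W.map (h : V →ₗ[K] V)))
    (hets : ∀ W : Submodule K V, TS Q W → TS Q (W.map (e : V →ₗ[K] V)))
    (hU : TS Q U) (hUm : finrank K U = m) :
    Even (m - finrank K (U ⊓ U.map ((h : V →ₗ[K] V) ∘ₗ (e : V →ₗ[K] V)) : Submodule K V)) ↔
      Even (m - finrank K (U ⊓ U.map (e : V →ₗ[K] V) : Submodule K V)) := by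
  have hmap : ∀ A B : Submodule K V, finrank K (A.map (h : V →ₗ[K] V) ⊓ B.map (h : V →ₗ[K] V) : Submodule K V) =
      finrank K (A ⊓ B : Submodule K V) := by
    intro A B
    rw [← Submodule.map_inf _ h.injective]
    exact LinearEquiv.finrank_map_eq h _
  have hfr : ∀ (g : V ≃ₗ[K] V) (A : Submodule K V), finrank K (A.map (g : V →ₗ[K] V)) = finrank K A :=
    fun g A => LinearEquiv.finrank_map_eq g A
  -- `hU`
  have hhU := hts U hU
  have hhUm : finrank K (U.map (h : V →ₗ[K] V)) = m := (hfr h U).trans hUm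
  have heU := hets U hU
  have heUm : finrank K (U.map (e : V →ₗ[K] V)) = m := (hfr e U).trans hUm
  have hheU := hts _ heU
  have hheUm : finrank K ((U.map (e : V →ₗ[K] V)).map (h : V →ₗ[K] V)) = m := (hfr h _).trans heUm
  have hcomp : U.map ((h : V →ₗ[K] V) ∘ₗ (e : V →ₗ[K] V)) = (U.map (e : V →ₗ[K] V)).map (h : V →ₗ[K] V) :=
    Submodule.map_comp _ _ _
  -- parity of `p(U, hU)`
  have p1 := hS.parity hdim hU hUm _ M (U.map (h : V →ₗ[K] V)) hM hMm hhU hhUm rfl
  have e1 : finrank K (M ⊓ U.map (h : V →ₗ[K] V) : Submodule K V) = finrank K (U ⊓ M : Submodule K V) := by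
    conv_lhs => rw [← hhM]
    rw [hmap, inf_comm]
  rw [e1] at p1
  have p2 := hS.parity hdim hU hUm _ (U.map (h : V →ₗ[K] V)) ((U.map (e : V →ₗ[K] V)).map (h : V →ₗ[K] V))
    hhU hhUm hheU hheUm rfl
  rw [hmap] at p2
  rw [hcomp]
  generalize m - finrank K (U ⊓ M : Submodule K V) = a at *
  generalize m - finrank K (U ⊓ U.map (h : V →ₗ[K] V) : Submodule K V) = b at *
  generalize m - finrank K (U ⊓ U.map (e : V →ₗ[K] V) : Submodule K V) = c at *
  generalize m - finrank K (U ⊓ (U.map (e : V →ₗ[K] V)).map (h : V →ₗ[K] V) : Submodule K V) = d at *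
  simp only [Nat.even_iff] at *
  omega

end abstract

section field

variable {K : Type*} [Field K] [Fintype K] {ι : Type} [Fintype ι] [DecidableEq ι]
  {Q : QuadraticForm K (ι → K)}

/-- The diagonal map `(x, y) ↦ (x, c y)`. -/
noncomputable def diagE (m : ℕ) (c : Kˣ) : (Fin m ⊕ Fin m → K) ≃ₗ[K] (Fin m ⊕ Fin m → K) :=
  LinearEquiv.ofLinearMap
    (Matrix.toLin' (Matrix.diagonal (Sum.elim (fun _ => 1) (fun _ => (c : K)))))
    (Matrix.toLin' (Matrix.diagonal (Sum.elim (fun _ => 1) (fun _ => ((c⁻¹ : Kˣ) : K)))))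
    (by
      rw [← Matrix.toLin'_mul, Matrix.diagonal_mul_diagonal]
      have : (fun i => (Sum.elim (fun _ => 1) (fun _ => (c : K)) : Fin m ⊕ Fin m → K) i *
          (Sum.elim (fun _ => 1) (fun _ => ((c⁻¹ : Kˣ) : K)) : Fin m ⊕ Fin m → K) i) = fun _ => 1 := by
        funext i
        rcases i with i | i <;> simp
      rw [this, Matrix.diagonal_one, Matrix.toLin'_one])
    (by
      rw [← Matrix.toLin'_mul, Matrix.diagonal_mul_diagonal]
      have : (fun i => (Sum.elim (fun _ => 1) (fun _ => ((c⁻¹ : Kˣ) : K)) : Fin m ⊕ Fin m → K) i *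
          (Sum.elim (fun _ => 1) (fun _ => (c : K)) : Fin m ⊕ Fin m → K) i) = fun _ => 1 := by
        funext i
        rcases i with i | i <;> simp
      rw [this, Matrix.diagonal_one, Matrix.toLin'_one])

theorem diagE_apply (m : ℕ) (c : Kˣ) (x : Fin m ⊕ Fin m → K) :
    diagE m c x = (Matrix.diagonal (Sum.elim (fun _ => 1) (fun _ => (c : K)))) *ᵥ x := rfl

theorem diagE_inl (m : ℕ) (c : Kˣ) (x : Fin m ⊕ Fin m → K) (i : Fin m) : diagE m c x (.inl i) = x (.inl i) := by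
  rw [diagE_apply, Matrix.mulVec_diagonal]
  simp

theorem diagE_inr (m : ℕ) (c : Kˣ) (x : Fin m ⊕ Fin m → K) (i : Fin m) :
    diagE m c x (.inr i) = c * x (.inr i) := by
  rw [diagE_apply, Matrix.mulVec_diagonal]
  simp

theorem plus_diagE (m : ℕ) (c : Kˣ) (x : Fin m ⊕ Fin m → K) :
    quadFormPlus m K (diagE m c x) = c * quadFormPlus m K x := by
  simp only [quadFormPlus, diagE_inl, diagE_inr, Finset.mul_sum]
  exact Finset.sum_congr rfl fun i _ => by ring

theorem det_diagE (m : ℕ) (c : Kˣ) :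
    LinearMap.det (diagE m c : (Fin m ⊕ Fin m → K) →ₗ[K] (Fin m ⊕ Fin m → K)) = (c : K) ^ m := by
  have : (diagE m c : (Fin m ⊕ Fin m → K) →ₗ[K] (Fin m ⊕ Fin m → K)) =
      Matrix.toLin' (Matrix.diagonal (Sum.elim (fun _ => 1) (fun _ => (c : K)))) := rfl
  rw [this, LinearMap.det_toLin', Matrix.det_diagonal, Fintype.prod_sum_type]
  simp

theorem diagE_stdM (m : ℕ) (c : Kˣ) {x : Fin m ⊕ Fin m → K} (hx : x ∈ stdM K m) : diagE m c x ∈ stdM K m := by
  have h : ∀ i, x (.inr i) = 0 := by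
    intro i
    have := congrFun (LinearMap.mem_ker.mp hx) i
    simpa [LinearMap.funLeft_apply] using this
  apply LinearMap.mem_ker.mpr
  funext i
  simp only [LinearMap.funLeft_apply, Pi.zero_apply]
  rw [diagE_inr, h, mul_zero]

variable [FiniteDimensional K (ι → K)]

/-- A similarity of multiplier `c`, determinant `c ^ m`, fixing a maximal totally singular subspace. -/
theorem exists_h₀ (hQ : (polarBilin Q).Nondegenerate) {m : ℕ} (hdim : Fintype.card ι = 2 * m)
    {U₀ : Submodule K (ι → K)} (hU₀ : TS (⇑Q) U₀) (hU₀m : finrank K U₀ = m) (c : Kˣ) :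
    ∃ (h : (ι → K) ≃ₗ[K] (ι → K)) (M : Submodule K (ι → K)),
      (∀ x, Q (h x) = c * Q x) ∧ TS (⇑Q) M ∧ finrank K M = m ∧ M.map (h : (ι → K) →ₗ[K] (ι → K)) = M ∧
      LinearMap.det (h : (ι → K) →ₗ[K] (ι → K)) = (c : K) ^ m := by
  have hdim' : finrank K (ι → K) = 2 * m := by simpa using hdim
  obtain ⟨Θ, hΘ⟩ := exists_equiv_plus_of_ts hQ hdim' hU₀ hU₀m
  let h : (ι → K) ≃ₗ[K] (ι → K) := Θ.symm.trans ((diagE m c).trans Θ)
  have happ : ∀ y, h (Θ y) = Θ (diagE m c y) := by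
    intro y
    simp [h]
  have hQh : ∀ x, Q (h x) = c * Q x := by
    intro x
    obtain ⟨y, rfl⟩ := Θ.surjective x
    rw [happ, hΘ, hΘ, plus_diagE]
  let M : Submodule K (ι → K) := (stdM K m).map (Θ : (Fin m ⊕ Fin m → K) →ₗ[K] (ι → K))
  have hMts : TS (⇑Q) M := by
    rintro _ ⟨y, hy, rfl⟩
    show Q (Θ y) = 0
    rw [hΘ]
    exact stdM_ts K m y hy
  have hMm : finrank K M = m := by
    rw [← stdM_finrank K m]
    exact LinearEquiv.finrank_map_eq Θ _
  refine ⟨h, M, hQh, hMts, hMm, ?_, ?_⟩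
  · have hle : M.map (h : (ι → K) →ₗ[K] (ι → K)) ≤ M := by
      rintro _ ⟨_, ⟨y, hy, rfl⟩, rfl⟩
      show h (Θ y) ∈ M
      rw [happ]
      exact ⟨_, diagE_stdM m c hy, rfl⟩
    apply Submodule.eq_of_le_of_finrank_eq hle
    exact (LinearEquiv.finrank_map_eq h M)
  · have h1 : (h : (ι → K) →ₗ[K] (ι → K)) = (Θ : (Fin m ⊕ Fin m → K) →ₗ[K] (ι → K)) ∘ₗ
        (diagE m c : (Fin m ⊕ Fin m → K) →ₗ[K] (Fin m ⊕ Fin m → K)) ∘ₗ
          (Θ.symm : (ι → K) →ₗ[K] (Fin m ⊕ Fin m → K)) := rfl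
    rw [h1, LinearMap.det_conj, det_diagE]

omit [FiniteDimensional K (ι → K)] in
/-- The Dickson invariant of an isometry in terms of the determinant. -/
theorem rp_eq_zero_iff (hQ : (polarBilin Q).Nondegenerate) (h2 : (2 : K) ≠ 0) (e : (ι → K) ≃ₗ[K] (ι → K))
    (he : e ∈ isoGroup Q) : rp e = 0 ↔ LinearMap.det (e : (ι → K) →ₗ[K] (ι → K)) = 1 := by
  have hc : Fintype.card K ≠ 2 ∨ Fintype.card ι ≠ 4 := Or.inl (card_ne_two_of_two_ne h2)
  let s : isometryGroup K ⇑Q := (toIso Q).symm ⟨e, he⟩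
  obtain ⟨vs, hvs, hs⟩ := exists_word Q hQ hc s
  have hs1 : e = (vs.map (refl Q)).prod := by
    have h3 : toIso Q s = toIso Q (vs.map (reflEl Q)).prod := by rw [← hs]
    have h4 := congrArg Subtype.val h3
    rw [Cfsg.Agent.Lib.Orth.Closure.toIso_word] at h4
    rw [← h4]
    simp [s]
  have h5 : rp e = (vs.length : ZMod 2) := by
    rw [hs1]
    exact (rp_word hQ vs hvs).2.1
  have h6 : LinearMap.det (e : (ι → K) →ₗ[K] (ι → K)) = (-1) ^ vs.length := by
    have h7 : (e : (ι → K) →ₗ[K] (ι → K)) = Matrix.toLin' ((s : GL ι K) : Matrix ι ι K) := by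
      apply LinearMap.ext
      intro x
      rw [Matrix.toLin'_apply]
      exact (toIso_symm_mulVec Q ⟨e, he⟩ x).symm
    rw [h7, LinearMap.det_toLin', hs, word_val, det_word Q vs hvs]
  rw [h5, h6, ZMod.natCast_eq_zero_iff_even]
  constructor
  · intro h
    exact h.neg_one_pow
  · intro h
    by_contra hodd
    rw [Nat.not_even_iff_odd] at hodd
    rw [hodd.neg_one_pow] at h
    apply h2
    linear_combination -h

/-- The main theorem. -/
theorem preserves_iff (hQ : (polarBilin Q).Nondegenerate) (h2 : (2 : K) ≠ 0) {m : ℕ} (hdim : Fintype.card ι = 2 * m)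
    {U₀ : Submodule K (ι → K)} (hU₀ : TS (⇑Q) U₀) (hU₀m : finrank K U₀ = m) (g : GL ι K) (c : Kˣ)
    (hc : ∀ v, Q ((g : Matrix ι ι K) *ᵥ v) = (c : K) * Q v) :
    PreservesSingularClasses (⇑Q) (g : Matrix ι ι K) ↔ (g : Matrix ι ι K).det = (c : K) ^ m := by
  have hcc : Fintype.card K ≠ 2 ∨ Fintype.card ι ≠ 4 := Or.inl (card_ne_two_of_two_ne h2)
  have hdim' : finrank K (ι → K) = 2 * m := by simpa using hdim
  have S := qspace hQ
  obtain ⟨h, M, hQh, hMts, hMm, hhM, hdet⟩ := exists_h₀ hQ hdim hU₀ hU₀m c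
  -- `gl`
  let gl : (ι → K) ≃ₗ[K] (ι → K) := glToLin g
  have hgl : ∀ x, gl x = (g : Matrix ι ι K) *ᵥ x := fun x => glToLin_apply g x
  let e : (ι → K) ≃ₗ[K] (ι → K) := gl.trans h.symm
  have he1 : ∀ x, h (e x) = gl x := fun x => by simp [e]
  have heQ : ∀ x, Q (e x) = Q x := by
    intro x
    have h3 : (c : K) * Q (e x) = c * Q x := by
      rw [← hQh, he1, hgl, hc]
    exact mul_left_cancel₀ c.ne_zero h3
  have he : e ∈ isoGroup Q := heQ
  have hc0 : (c : K) ^ m ≠ 0 := pow_ne_zero _ c.ne_zero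
  have hcomp : (h : (ι → K) →ₗ[K] (ι → K)) ∘ₗ (e : (ι → K) →ₗ[K] (ι → K)) = Matrix.toLin' (g : Matrix ι ι K) := by
    apply LinearMap.ext
    intro x
    rw [Matrix.toLin'_apply]
    show h (e x) = _
    rw [he1, hgl]
  have hd : (g : Matrix ι ι K).det = (c : K) ^ m * LinearMap.det (e : (ι → K) →ₗ[K] (ι → K)) := by
    rw [← LinearMap.det_toLin' (g : Matrix ι ι K), ← hcomp, LinearMap.det_comp, hdet]
  have hiff : (g : Matrix ι ι K).det = (c : K) ^ m ↔ rp e = 0 := by
    rw [rp_eq_zero_iff hQ h2 e he, hd]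
    constructor
    · intro h3
      exact mul_left_cancel₀ hc0 (by rw [h3, mul_one])
    · intro h3
      rw [h3, mul_one]
  have hts : ∀ W : Submodule K (ι → K), TS (⇑Q) W → TS (⇑Q) (W.map (h : (ι → K) →ₗ[K] (ι → K))) := by
    rintro W hW _ ⟨x, hx, rfl⟩
    show Q (h x) = 0
    rw [hQh, hW x hx, mul_zero]
  have hets : ∀ W : Submodule K (ι → K), TS (⇑Q) W → TS (⇑Q) (W.map (e : (ι → K) →ₗ[K] (ι → K))) := by
    rintro W hW _ ⟨x, hx, rfl⟩
    show Q (e x) = 0
    rw [heQ, hW x hx]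
  have hkey : ∀ U : Submodule K (ι → K), TS (⇑Q) U → finrank K U = m →
      (SameParityClass U (imageSubmodule (g : Matrix ι ι K) U) ↔ rp e = 0) := by
    intro U hU hUm
    have h5 := parity_core hdim' S hMts hMm hhM hts hets hU hUm
    rw [hcomp] at h5
    unfold SameParityClass imageSubmodule
    rw [hUm, h5, rp_eq hQ hdim' hU hUm (hgen Q hQ hcc _ he), ZMod.natCast_eq_zero_iff_even]
  rw [hiff]
  constructor
  · intro hP
    have hmax : IsMaxTotallySingular (⇑Q) U₀ := by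
      refine ⟨hU₀, ?_⟩
      intro W hW hle
      symm
      apply Submodule.eq_of_le_of_finrank_le hle
      rw [hU₀m]
      exact S.finrank_ts_le hdim' hW
    exact (hkey U₀ hU₀ hU₀m).1 (hP U₀ hmax)
  · intro hr U hU
    have hUm : finrank K U = m := by
      by_contra hne
      have hle := S.finrank_ts_le hdim' hU.1
      obtain ⟨W, hW, hUW, hne'⟩ := exists_extend S hdim' hU₀ hU₀m hU.1 (by omega)
      exact hne' (hU.2 W hW hUW)
    exact (hkey U hU.1 hUm).2 hr

end field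

end Cfsg.Agent.Lib.OutO.Classes
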