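/-
Small abstract group lemmas: descent of homomorphisms along surjections, recognising the groups of
order two, four and the dihedral group of order eight.
-/
import Mathlib

set_option autoImplicit false

namespace Cfsg.Agent.Lib.OutO.GroupLemmas

section descend

variable {G P A : Type*} [Group G] [Group P] [Group A]

/-- Descent of a homomorphism. -/
theorem descend (Φ : G →* P) (χ : G →* A) (hker : Φ.ker ≤ χ.ker) (hs : Function.Surjective χ)
    (R S : Subgroup P) (hR : R = Φ.range) (hS : S = χ.ker.map Φ) :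
    ∃ φ : ↥R →* A, Function.Surjective φ ∧ φ.ker = S.subgroupOf R := by
  subst hR hS
  have hf : Function.Surjective Φ.rangeRestrict := Φ.rangeRestrict_surjective
  have hk : Φ.rangeRestrict.ker ≤ χ.ker := by
    rw [MonoidHom.ker_rangeRestrict]
    exact hker
  let φ : ↥Φ.range →* A := (MonoidHom.liftOfSurjective Φ.rangeRestrict hf) ⟨χ, hk⟩
  have hφ : ∀ g, φ (Φ.rangeRestrict g) = χ g := fun g =>
    MonoidHom.liftOfRightInverse_comp_apply _ _ _ ⟨χ, hk⟩ g
  refine ⟨φ, ?_, ?_⟩
  · intro a
    obtain ⟨g, rfl⟩ := hs a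
    exact ⟨_, hφ g⟩
  · ext x
    obtain ⟨g, rfl⟩ := hf x
    rw [MonoidHom.mem_ker, hφ, Subgroup.mem_subgroupOf]
    constructor
    · intro h
      exact ⟨g, h, rfl⟩
    · rintro ⟨g', hg', hgg⟩
      have h1 : g'⁻¹ * g ∈ χ.ker := hker (by
        rw [MonoidHom.mem_ker, map_mul, map_inv]
        have : Φ g' = Φ g := hgg
        rw [this]
        exact inv_mul_cancel _)
      rw [MonoidHom.mem_ker, map_mul, map_inv, hg', inv_one, one_mul] at h1
      exact h1

/-- A surjection with given kernel computes a relative index. -/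
theorem relIndex_of_hom {R S : Subgroup P} (φ : ↥R →* A) (hs : Function.Surjective φ)
    (hk : φ.ker = S.subgroupOf R) : S.relIndex R = Nat.card A := by
  rw [Subgroup.relIndex, ← hk, Subgroup.index_ker, MonoidHom.range_eq_top.2 hs, Subgroup.card_top]

/-- From a relative index and structure of the quotient to a homomorphism. -/
theorem exists_hom_of_equiv {R S : Subgroup P} [hn : (S.subgroupOf R).Normal]
    (e : (↥R ⧸ S.subgroupOf R) ≃* A) :
    ∃ φ : ↥R →* A, Function.Surjective φ ∧ φ.ker = S.subgroupOf R := by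
  refine ⟨e.toMonoidHom.comp (QuotientGroup.mk' _), ?_, ?_⟩
  · exact e.surjective.comp (QuotientGroup.mk'_surjective _)
  · ext x
    rw [MonoidHom.mem_ker]
    simp only [MonoidHom.coe_comp, Function.comp_apply, QuotientGroup.mk'_apply]
    show e (x : ↥R ⧸ S.subgroupOf R) = 1 ↔ _
    rw [map_eq_one_iff e e.injective, QuotientGroup.eq_one_iff]

end descend

theorem zmod2_cases : ∀ i : ZMod 2, i = 0 ∨ i = 1 := by decide

section small

variable {G : Type*} [Group G]

theorem pow_zmod_add {n : ℕ} [NeZero n] (z : G) (hz : z ^ n = 1) (i j : ZMod n) :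
    z ^ (i + j).val = z ^ i.val * z ^ j.val := by
  rw [ZMod.val_add, ← pow_add, ← pow_eq_pow_mod _ hz]

theorem equiv_C2 (hcard : Nat.card G = 2) : Nonempty (G ≃* Multiplicative (ZMod 2)) := by
  have : Fact (Nat.Prime 2) := ⟨Nat.prime_two⟩
  have : IsCyclic G := isCyclic_of_prime_card hcard
  exact ⟨mulEquivOfCyclicCardEq (by rw [hcard]; simp)⟩

theorem equiv_C4 (hcard : Nat.card G = 4) (x : G) (hx : x * x ≠ 1) :
    Nonempty (G ≃* Multiplicative (ZMod 4)) := by
  have : Finite G := Nat.finite_of_card_ne_zero (by omega)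
  have h1 : orderOf x ∣ 4 := hcard ▸ orderOf_dvd_natCard x
  have h2 : orderOf x ≠ 1 := by
    intro h
    apply hx
    rw [orderOf_eq_one_iff.1 h, one_mul]
  have h3 : orderOf x ≠ 2 := by
    intro h
    apply hx
    rw [← sq, ← h, pow_orderOf_eq_one]
  have h4 : orderOf x = 4 := by
    have : orderOf x ∈ Nat.divisors 4 := Nat.mem_divisors.2 ⟨h1, by norm_num⟩
    have h5 : Nat.divisors 4 = {1, 2, 4} := by decide
    rw [h5] at this
    simp only [Finset.mem_insert, Finset.mem_singleton] at this
    omega
  have : IsCyclic G := isCyclic_of_orderOf_eq_card x (by rw [h4, hcard])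
  exact ⟨mulEquivOfCyclicCardEq (by rw [hcard]; simp)⟩

theorem equiv_klein (hcard : Nat.card G = 4) (x y : G) (hx : x ≠ 1) (hxx : x * x = 1) (hy : y ≠ 1)
    (hyy : y * y = 1) (hxy : x ≠ y) : Nonempty (G ≃* Multiplicative (ZMod 2 × ZMod 2)) := by
  have : Fact (Nat.Prime 2) := ⟨Nat.prime_two⟩
  have : Finite G := Nat.finite_of_card_ne_zero (by omega)
  have hp : IsPGroup 2 G := IsPGroup.of_card (n := 2) (by rw [hcard]; norm_num)
  have hcomm : ∀ a b : G, a * b = b * a := by
    have := IsPGroup.isMulCommutative_of_card_eq_prime_sq (p := 2) (G := G) (by rw [hcard]; norm_num)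
    exact this.is_comm.comm
  have hpw : ∀ (z : G), z * z = 1 → ∀ i : ZMod 2, ∀ j : ZMod 2, z ^ (i + j).val = z ^ i.val * z ^ j.val := by
    intro z hz i j
    exact pow_zmod_add z (by rw [_root_.sq, hz]) i j
  let ψ : Multiplicative (ZMod 2 × ZMod 2) →* G :=
    { toFun := fun a => x ^ (Multiplicative.toAdd a).1.val * y ^ (Multiplicative.toAdd a).2.val
      map_one' := by simp
      map_mul' := by
        intro a b
        simp only [toAdd_mul, Prod.fst_add, Prod.snd_add]
        rw [hpw x hxx, hpw y hyy]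
        generalize x ^ (Multiplicative.toAdd a).1.val = A
        generalize x ^ (Multiplicative.toAdd b).1.val = B
        generalize y ^ (Multiplicative.toAdd a).2.val = C
        generalize y ^ (Multiplicative.toAdd b).2.val = D
        calc A * B * (C * D) = A * (B * C) * D := by group
          _ = A * (C * B) * D := by rw [hcomm B C]
          _ = A * C * (B * D) := by group }
  have hinj : Function.Injective ψ := by
    rw [injective_iff_map_eq_one]
    intro a ha
    rcases a with ⟨i, j⟩
    have v0 : (0 : ZMod 2).val = 0 := rfl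
    have v1 : (1 : ZMod 2).val = 1 := rfl
    change x ^ i.val * y ^ j.val = 1 at ha
    rcases zmod2_cases i with rfl | rfl <;> rcases zmod2_cases j with rfl | rfl
    · rfl
    · exfalso
      apply hy
      simpa only [v0, v1, pow_zero, pow_one, one_mul, mul_one] using ha
    · exfalso
      apply hx
      simpa only [v0, v1, pow_zero, pow_one, one_mul, mul_one] using ha
    · exfalso
      apply hxy
      have h3 : x * y = 1 := by simpa only [v0, v1, pow_zero, pow_one, one_mul, mul_one] using ha
      calc x = x * (y * y) := by rw [hyy, mul_one]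
        _ = (x * y) * y := by rw [mul_assoc]
        _ = y := by rw [h3, one_mul]
  have hcardM : Nat.card (Multiplicative (ZMod 2 × ZMod 2)) = 4 := by
    rw [Nat.card_congr Multiplicative.toAdd, Nat.card_prod, Nat.card_zmod]
  have hbij : Function.Bijective ψ := by
    refine (Nat.bijective_iff_injective_and_card ψ).2 ⟨hinj, by rw [hcardM, hcard]⟩
  exact ⟨(MulEquiv.ofBijective ψ hbij).symm⟩

end small

section dihedral

variable {G : Type*} [Group G]

/-- A non-abelian group of order eight with a non-central involution is dihedral. -/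
theorem equiv_D8 (hcard : Nat.card G = 8) (r d : G) (hr : r * r = 1) (hcomm : d * r ≠ r * d) :
    Nonempty (G ≃* DihedralGroup 4) := by
  have : Finite G := Nat.finite_of_card_ne_zero (by omega)
  -- an element of order four
  obtain ⟨a, ha⟩ : ∃ a : G, orderOf a = 4 := by
    by_contra hcon
    push Not at hcon
    have hdiv : ∀ x : G, orderOf x ∣ 8 := fun x => hcard ▸ orderOf_dvd_natCard x
    have hne8 : ∀ x : G, orderOf x ≠ 8 := by
      intro x hx
      have : IsCyclic G := isCyclic_of_orderOf_eq_card x (by rw [hx, hcard])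
      exact hcomm (mul_comm' d r)
    have hsq : ∀ x : G, x * x = 1 := by
      intro x
      have h1 : orderOf x ∈ Nat.divisors 8 := Nat.mem_divisors.2 ⟨hdiv x, by norm_num⟩
      have h5 : Nat.divisors 8 = {1, 2, 4, 8} := by decide
      rw [h5] at h1
      simp only [Finset.mem_insert, Finset.mem_singleton] at h1
      have h2 : orderOf x = 1 ∨ orderOf x = 2 := by
        have := hcon x
        have := hne8 x
        omega
      rcases h2 with h | h
      · rw [orderOf_eq_one_iff.1 h, one_mul]
      · rw [← sq, ← h, pow_orderOf_eq_one]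
    apply hcomm
    have h3 := hsq (d * r)
    calc d * r = (d * r)⁻¹ := (inv_eq_of_mul_eq_one_left h3).symm
      _ = r⁻¹ * d⁻¹ := mul_inv_rev d r
      _ = r * d := by
        rw [inv_eq_of_mul_eq_one_left (hsq r), inv_eq_of_mul_eq_one_left (hsq d)]
  set H : Subgroup G := Subgroup.zpowers a with hH
  have hHcard : Nat.card H = 4 := by
    rw [hH, Nat.card_zpowers, ha]
  have hidx : H.index = 2 := by
    have h1 := Subgroup.card_mul_index H
    rw [hHcard, hcard] at h1
    omega
  have hnorm : H.Normal := Subgroup.normal_of_index_eq_two hidx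
  have hpow4 : a ^ 4 = 1 := by
    rw [← ha, pow_orderOf_eq_one]
  let pw : ZMod 4 → G := fun i => a ^ i.val
  have pw_add : ∀ i j, pw (i + j) = pw i * pw j := fun i j => pow_zmod_add a hpow4 i j
  have pw_zero : pw 0 = 1 := by simp [pw]
  have pw_neg : ∀ i, pw (-i) = (pw i)⁻¹ := by
    intro i
    apply eq_inv_of_mul_eq_one_left
    rw [← pw_add, neg_add_cancel, pw_zero]
  have pw_one : pw 1 = a := by
    show a ^ (1 : ZMod 4).val = a
    have : (1 : ZMod 4).val = 1 := rfl
    rw [this, pow_one]
  have pw_inj : ∀ i, pw i = 1 → i = 0 := by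
    intro i hi
    have h1 : orderOf a ∣ i.val := orderOf_dvd_of_pow_eq_one hi
    rw [ha] at h1
    have h2 : i.val < 4 := ZMod.val_lt i
    have h3 : i.val = 0 := Nat.eq_zero_of_dvd_of_lt h1 h2
    exact (ZMod.val_eq_zero i).1 h3
  have hmemH : ∀ x ∈ H, ∃ i, x = pw i := by
    intro x hx
    obtain ⟨n, hn⟩ := (mem_powers_iff_mem_zpowers.2 hx)
    refine ⟨(n : ZMod 4), ?_⟩
    show x = a ^ ((n : ZMod 4)).val
    rw [ZMod.val_natCast, ← pow_eq_pow_mod _ hpow4]
    exact hn.symm
  have pw_mem : ∀ i, pw i ∈ H := fun i => H.pow_mem (Subgroup.mem_zpowers a) _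
  have ha2 : a * a ≠ 1 := by
    intro h
    have h1 : orderOf a ∣ 2 := orderOf_dvd_of_pow_eq_one (by rw [_root_.sq, h])
    rw [ha] at h1
    omega
  have h_cases : ∀ j : ZMod 4, j = 0 ∨ j = 1 ∨ j = 2 ∨ j = 3 := by decide
  have pw_two : pw 2 = a * a := by
    show a ^ (2 : ZMod 4).val = a * a
    have : (2 : ZMod 4).val = 2 := rfl
    rw [this, _root_.sq]
  have pw_three : pw 3 = a⁻¹ := by
    have : (3 : ZMod 4) = - 1 := by decide
    rw [this, pw_neg, pw_one]
  -- squares in `H`
  have hsqpw : ∀ j, pw j * pw j ≠ 1 → pw j * pw j = a * a ∧ (j = 1 ∨ j = 3) := by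
    intro j hj
    rcases h_cases j with rfl | rfl | rfl | rfl
    · exact absurd (by rw [pw_zero, one_mul]) hj
    · exact ⟨by rw [pw_one], Or.inl rfl⟩
    · exfalso
      apply hj
      rw [← pw_add]
      have : (2 : ZMod 4) + 2 = 0 := by decide
      rw [this, pw_zero]
    · refine ⟨?_, Or.inr rfl⟩
      rw [pw_three]
      have h5 : (a * a) * (a * a) = 1 := by
        have : a ^ 4 = (a * a) * (a * a) := by simp [pow_succ, mul_assoc]
        rw [← this, hpow4]
      have h7 : (a * a)⁻¹ = a * a := inv_eq_of_mul_eq_one_left h5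
      have h8 : a⁻¹ * a⁻¹ = (a * a)⁻¹ := by group
      rw [h8, h7]
  -- `a²` is central
  have hcentral : ∀ x : G, x * (a * a) = (a * a) * x := by
    intro x
    obtain ⟨j, hj⟩ := hmemH _ (hnorm.conj_mem a (Subgroup.mem_zpowers a) x)
    have h1 : (x * a * x⁻¹) * (x * a * x⁻¹) = x * (a * a) * x⁻¹ := by group
    have h2 : pw j * pw j ≠ 1 := by
      rw [← hj, h1]
      intro h3
      apply ha2
      have : a * a = x⁻¹ * (x * (a * a) * x⁻¹) * x := by group
      rw [this, h3]
      group
    have h3 := (hsqpw j h2).1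
    rw [← hj, h1] at h3
    calc x * (a * a) = x * (a * a) * x⁻¹ * x := by group
      _ = (a * a) * x := by rw [h3]
  -- `r ∉ H`
  have hrH : r ∉ H := by
    intro hr'
    obtain ⟨j, hj⟩ := hmemH r hr'
    rcases h_cases j with rfl | rfl | rfl | rfl
    · apply hcomm
      rw [hj, pw_zero, mul_one, one_mul]
    · apply ha2
      rw [← hr, hj, pw_one]
    · apply hcomm
      rw [hj, pw_two]
      exact (hcentral d)
    · apply ha2
      have h3 : a⁻¹ * a⁻¹ = 1 := by rw [← hr, hj, pw_three]
      have h4 : a * a = (a⁻¹ * a⁻¹)⁻¹ := by rw [mul_inv_rev, inv_inv]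
      rw [h4, h3, inv_one]
  -- action of `r` on `a`
  have hrinv : r⁻¹ = r := inv_eq_of_mul_eq_one_left hr
  have hra : r * a * r⁻¹ = a⁻¹ := by
    obtain ⟨j, hj⟩ := hmemH _ (hnorm.conj_mem a (Subgroup.mem_zpowers a) r)
    have h1 : (r * a * r⁻¹) * (r * a * r⁻¹) = r * (a * a) * r⁻¹ := by group
    have h2 : pw j * pw j ≠ 1 := by
      rw [← hj, h1]
      intro h3
      apply ha2
      have : a * a = r⁻¹ * (r * (a * a) * r⁻¹) * r := by group
      rw [this, h3]
      group
    rcases (hsqpw j h2).2 with rfl | rfl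
    · exfalso
      rw [pw_one] at hj
      have hcr : r * a = a * r := by
        calc r * a = r * a * r⁻¹ * r := by group
          _ = a * r := by rw [hj]
      have hcp : ∀ i, r * pw i = pw i * r := by
        intro i
        show r * a ^ i.val = a ^ i.val * r
        have : Commute r (a ^ i.val) := Commute.pow_right hcr _
        exact this.eq
      apply hcomm
      by_cases hd : d ∈ H
      · obtain ⟨i, rfl⟩ := hmemH d hd
        exact (hcp i).symm
      · have h3 : r * d ∈ H := (Subgroup.mul_mem_iff_of_index_two hidx).2 (iff_of_false hrH hd)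
        obtain ⟨i, hi⟩ := hmemH _ h3
        have h4 : d = r * pw i := by
          calc d = r * (r * d) := by rw [← mul_assoc, hr, one_mul]
            _ = r * pw i := by rw [hi]
        rw [h4, mul_assoc, ← hcp i]
    · rw [hj, pw_three]
  have hrp : ∀ i, r * pw i = pw (-i) * r := by
    intro i
    rw [pw_neg]
    have h1 : r * a ^ i.val * r⁻¹ = (r * a * r⁻¹) ^ i.val := (conj_pow).symm
    rw [hra, inv_pow] at h1
    calc r * pw i = r * a ^ i.val * r⁻¹ * r := (inv_mul_cancel_right (r * a ^ i.val) r).symm
      _ = (pw i)⁻¹ * r := by rw [h1]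
  have hpr : ∀ i, pw i * r = r * pw (-i) := by
    intro i
    rw [hrp (-i), neg_neg]
  let ψ : DihedralGroup 4 →* G :=
    { toFun := fun x => match x with
        | DihedralGroup.r i => pw i
        | DihedralGroup.sr i => r * pw i
      map_one' := pw_zero
      map_mul' := by
        intro x y
        cases x with
        | r i =>
          cases y with
          | r j =>
            show pw (i + j) = pw i * pw j
            exact pw_add i j
          | sr j =>
            show r * pw (j - i) = pw i * (r * pw j)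
            rw [← mul_assoc, hpr, mul_assoc, ← pw_add, sub_eq_add_neg, add_comm]
        | sr i =>
          cases y with
          | r j =>
            show r * pw (i + j) = r * pw i * pw j
            rw [pw_add, mul_assoc]
          | sr j =>
            show pw (j - i) = r * pw i * (r * pw j)
            calc pw (j - i) = (r * r) * (pw (-i) * pw j) := by
                  rw [hr, one_mul, ← pw_add, sub_eq_add_neg, add_comm]
              _ = r * (r * pw (-i)) * pw j := by group
              _ = r * (pw i * r) * pw j := by rw [hpr]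
              _ = r * pw i * (r * pw j) := by group }
  have hinj : Function.Injective ψ := by
    rw [injective_iff_map_eq_one]
    intro x hx
    cases x with
    | r i =>
      have h1 : pw i = 1 := hx
      rw [pw_inj i h1]
      rfl
    | sr i =>
      exfalso
      have h1 : r * pw i = 1 := hx
      apply hrH
      have h2 : r = (pw i)⁻¹ := eq_inv_of_mul_eq_one_left h1
      rw [h2]
      exact H.inv_mem (pw_mem i)
  have hbij : Function.Bijective ψ := by
    refine (Nat.bijective_iff_injective_and_card ψ).2 ⟨hinj, ?_⟩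
    rw [hcard, DihedralGroup.nat_card]
  exact ⟨(MulEquiv.ofBijective ψ hbij).symm⟩

end dihedral

section quot

variable {X : Type*} [Group X] {R S : Subgroup X}

theorem mk_eq_one_iff [(S.subgroupOf R).Normal] (x : ↥R) :
    QuotientGroup.mk' (S.subgroupOf R) x = 1 ↔ x.1 ∈ S := by
  rw [QuotientGroup.mk'_apply, QuotientGroup.eq_one_iff, Subgroup.mem_subgroupOf]

theorem hom_D8 [hS : S.Normal] (h : S.relIndex R = 8) (r d : ↥R) (hr : (r * r).1 ∈ S)
    (hcomm : (d * r * d⁻¹ * r⁻¹).1 ∉ S) :
    ∃ φ : ↥R →* DihedralGroup 4, Function.Surjective φ ∧ φ.ker = S.subgroupOf R := by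
  have hN : (S.subgroupOf R).Normal := hS.subgroupOf R
  have hcard : Nat.card (↥R ⧸ S.subgroupOf R) = 8 := h
  let mk := QuotientGroup.mk' (S.subgroupOf R)
  have h1 : mk r * mk r = 1 := by
    rw [← map_mul]
    exact (mk_eq_one_iff _).2 hr
  have h3 : mk d * mk r ≠ mk r * mk d := by
    intro h'
    apply hcomm
    rw [← mk_eq_one_iff]
    show mk _ = 1
    simp only [map_mul, map_inv]
    rw [h']
    group
  obtain ⟨e⟩ := equiv_D8 hcard _ _ h1 h3
  exact exists_hom_of_equiv e

theorem hom_C4 [hS : S.Normal] (h : S.relIndex R = 4) (x : ↥R) (hx : (x * x).1 ∉ S) :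
    ∃ φ : ↥R →* Multiplicative (ZMod 4), Function.Surjective φ ∧ φ.ker = S.subgroupOf R := by
  have hN : (S.subgroupOf R).Normal := hS.subgroupOf R
  have hcard : Nat.card (↥R ⧸ S.subgroupOf R) = 4 := h
  let mk := QuotientGroup.mk' (S.subgroupOf R)
  have h1 : mk x * mk x ≠ 1 := by
    rw [← map_mul]
    intro h'
    exact hx ((mk_eq_one_iff _).1 h')
  obtain ⟨e⟩ := equiv_C4 hcard _ h1
  exact exists_hom_of_equiv e

theorem hom_klein [hS : S.Normal] (h : S.relIndex R = 4) (x y : ↥R) (hx : x.1 ∉ S) (hxx : (x * x).1 ∈ S)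
    (hy : y.1 ∉ S) (hyy : (y * y).1 ∈ S) (hxy : (y⁻¹ * x).1 ∉ S) :
    ∃ φ : ↥R →* Multiplicative (ZMod 2 × ZMod 2), Function.Surjective φ ∧ φ.ker = S.subgroupOf R := by
  have hN : (S.subgroupOf R).Normal := hS.subgroupOf R
  have hcard : Nat.card (↥R ⧸ S.subgroupOf R) = 4 := h
  let mk := QuotientGroup.mk' (S.subgroupOf R)
  have h1 : mk x ≠ 1 := fun h' => hx ((mk_eq_one_iff _).1 h')
  have h2 : mk y ≠ 1 := fun h' => hy ((mk_eq_one_iff _).1 h')
  have h3 : mk x * mk x = 1 := by
    rw [← map_mul]
    exact (mk_eq_one_iff _).2 hxx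
  have h4 : mk y * mk y = 1 := by
    rw [← map_mul]
    exact (mk_eq_one_iff _).2 hyy
  have h5 : mk x ≠ mk y := by
    intro h'
    apply hxy
    rw [← mk_eq_one_iff]
    show mk _ = 1
    rw [map_mul, map_inv, h', inv_mul_cancel]
  obtain ⟨e⟩ := equiv_klein hcard _ _ h1 h3 h2 h4 h5
  exact exists_hom_of_equiv e

end quot

end Cfsg.Agent.Lib.OutO.GroupLemmas
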