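/-
The homomorphism from the similarity group of a quadratic form to the automorphism group of `PΩ`.
-/
import Mathlib
import Cfsg.Prelude.Def_LieTypeDatum
import Cfsg.Agent.Lib.Classical.OmegaAut
import Cfsg.Agent.Lib.Classical.QuadEichBridge

set_option autoImplicit false

namespace Cfsg.Agent.Lib.OutO.Induced

open Matrix Cfsg QuadraticMap
open Cfsg.Agent.Lib.Orth.Bridge

universe u

variable {F : Type u} [Field F] {ι : Type} [Fintype ι] [DecidableEq ι]

/-- Similarities. -/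
abbrev GO (Q : (ι → F) → F) : Subgroup (GL ι F) := Geo.quadSimilarityGroup (F := F) Q

theorem mul_mulVec' (g h : GL ι F) (v : ι → F) :
    ((g * h : GL ι F) : Matrix ι ι F) *ᵥ v = (g : Matrix ι ι F) *ᵥ ((h : Matrix ι ι F) *ᵥ v) := by
  rw [Units.val_mul, Matrix.mulVec_mulVec]

theorem inv_mulVec (g : GL ι F) (v : ι → F) :
    (g : Matrix ι ι F) *ᵥ (((g⁻¹ : GL ι F) : Matrix ι ι F) *ᵥ v) = v := by
  rw [← mul_mulVec', mul_inv_cancel, Units.val_one, Matrix.one_mulVec]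

theorem inv_mulVec' (g : GL ι F) (v : ι → F) :
    ((g⁻¹ : GL ι F) : Matrix ι ι F) *ᵥ ((g : Matrix ι ι F) *ᵥ v) = v := by
  rw [← mul_mulVec', inv_mul_cancel, Units.val_one, Matrix.one_mulVec]

variable {Q : (ι → F) → F}

theorem conj_mem_isometry {g h : GL ι F} (hg : g ∈ GO Q) (hh : h ∈ isometryGroup F Q) :
    g * h * g⁻¹ ∈ isometryGroup F Q := by
  obtain ⟨c, hc⟩ := hg
  rw [mem_isometryGroup_iff] at hh ⊢
  intro v
  rw [mul_mulVec', mul_mulVec', hc, hh, ← hc, inv_mulVec]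

theorem isometry_le_GO : isometryGroup F Q ≤ GO Q := by
  intro g hg
  refine ⟨1, fun v => ?_⟩
  rw [(mem_isometryGroup_iff _ _).1 hg v]
  simp

variable (Q)

/-- Conjugation by a similarity on the isometry group. -/
def conjO (g : ↥(GO Q)) : ↥(isometryGroup F Q) ≃* ↥(isometryGroup F Q) where
  toFun h := ⟨g.1 * h.1 * g.1⁻¹, conj_mem_isometry g.2 h.2⟩
  invFun h := ⟨g.1⁻¹ * h.1 * g.1, by
    have := conj_mem_isometry (inv_mem g.2) h.2
    rwa [inv_inv] at this⟩
  left_inv h := by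
    apply Subtype.ext
    show g.1⁻¹ * (g.1 * h.1 * g.1⁻¹) * g.1 = h.1
    group
  right_inv h := by
    apply Subtype.ext
    show g.1 * (g.1⁻¹ * h.1 * g.1) * g.1⁻¹ = h.1
    group
  map_mul' a b := by
    apply Subtype.ext
    show g.1 * (a.1 * b.1) * g.1⁻¹ = (g.1 * a.1 * g.1⁻¹) * (g.1 * b.1 * g.1⁻¹)
    group

variable {Q}

theorem mem_Omega_of_equiv (φ : ↥(isometryGroup F Q) ≃* ↥(isometryGroup F Q)) {s : ↥(isometryGroup F Q)}
    (hs : s ∈ Omega F Q) : φ s ∈ Omega F Q :=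
  (Subgroup.characteristic_iff_map_le.1 (inferInstance : (Omega F Q).Characteristic) φ)
    (Subgroup.mem_map_of_mem _ hs)

variable (Q)

/-- Conjugation by a similarity on `Ω`. -/
def conjΩ (g : ↥(GO Q)) : ↥(Omega F Q) ≃* ↥(Omega F Q) where
  toFun s := ⟨conjO Q g s.1, mem_Omega_of_equiv _ s.2⟩
  invFun s := ⟨(conjO Q g).symm s.1, mem_Omega_of_equiv _ s.2⟩
  left_inv s := Subtype.ext ((conjO Q g).symm_apply_apply s.1)
  right_inv s := Subtype.ext ((conjO Q g).apply_symm_apply s.1)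
  map_mul' a b := Subtype.ext ((conjO Q g).map_mul a.1 b.1)

theorem conjΩ_val (g : ↥(GO Q)) (s : ↥(Omega F Q)) : ((conjΩ Q g s).1.1 : GL ι F) = g.1 * s.1.1 * g.1⁻¹ := rfl

/-- The automorphism of `PΩ` induced by a similarity. -/
noncomputable def bar (g : ↥(GO Q)) : POmega F Q ≃* POmega F Q :=
  Cfsg.Agent.Lib.Classical.SympSimple.quotientCenterEquiv (conjΩ Q g)

theorem bar_mk (g : ↥(GO Q)) (s : ↥(Omega F Q)) :
    bar Q g (QuotientGroup.mk s) = QuotientGroup.mk (conjΩ Q g s) := rfl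

/-- The homomorphism to the automorphism group of `PΩ`. -/
noncomputable def Phi : ↥(GO Q) →* MulAut (POmega F Q) :=
  MonoidHom.mk' (bar Q) (by
    intro a b
    apply MulEquiv.ext
    intro x
    induction x using QuotientGroup.induction_on with
    | H s =>
      show QuotientGroup.mk (conjΩ Q (a * b) s) = QuotientGroup.mk (conjΩ Q a (conjΩ Q b s))
      congr 1
      apply Subtype.ext
      apply Subtype.ext
      show (a.1 * b.1) * s.1.1 * (a.1 * b.1)⁻¹ = a.1 * (b.1 * s.1.1 * b.1⁻¹) * a.1⁻¹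
      group)

theorem Phi_mk (g : ↥(GO Q)) (s : ↥(Omega F Q)) :
    Phi Q g (QuotientGroup.mk s) = QuotientGroup.mk (conjΩ Q g s) := rfl

theorem map_refl_eq (M : Matrix ι ι F) : M.map (RingEquiv.refl F) = M := by
  ext i j
  simp

theorem isInduced_Phi (g : ↥(GO Q)) :
    IsInducedBySemilinearPOmega Q g.1 (RingEquiv.refl F) (Phi Q g) := by
  intro s s' h
  rw [Phi_mk]
  congr 1
  apply Subtype.ext
  apply Subtype.ext
  apply Units.ext
  rw [h, map_refl_eq]
  rfl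

theorem eq_Phi_of_induced (g : ↥(GO Q)) {β : POmega F Q ≃* POmega F Q}
    (h : IsInducedBySemilinearPOmega Q g.1 (RingEquiv.refl F) β) : β = Phi Q g := by
  apply MulEquiv.ext
  intro x
  induction x using QuotientGroup.induction_on with
  | H s =>
    rw [Phi_mk]
    apply h s (conjΩ Q g s)
    rw [map_refl_eq]
    rfl

theorem autSubgroupOf_eq (P : (POmega F Q ≃* POmega F Q) → Prop) (H : Subgroup ↥(GO Q))
    (hP : ∀ β, P β ↔ ∃ g ∈ H, β = Phi Q g) : autSubgroupOf P = H.map (Phi Q) := by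
  have h1 : {β | P β} = (Phi Q) '' (H : Set ↥(GO Q)) := by
    ext β
    simp only [Set.mem_ofPred_eq, Set.mem_image, SetLike.mem_coe]
    rw [hP]
    constructor
    · rintro ⟨g, hg, rfl⟩
      exact ⟨g, hg, rfl⟩
    · rintro ⟨g, hg, rfl⟩
      exact ⟨g, hg, rfl⟩
  rw [autSubgroupOf, h1, ← MonoidHom.map_closure, Subgroup.closure_eq]

theorem pgoAut_eq : pgoAut F Q = (⊤ : Subgroup ↥(GO Q)).map (Phi Q) := by
  apply autSubgroupOf_eq
  intro β
  constructor
  · rintro ⟨g, hg, hi⟩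
    exact ⟨⟨g, hg⟩, trivial, eq_Phi_of_induced Q ⟨g, hg⟩ hi⟩
  · rintro ⟨g, -, rfl⟩
    exact ⟨g.1, g.2, isInduced_Phi Q g⟩

/-- The special orthogonal group inside the similarities. -/
abbrev SOG : Subgroup ↥(GO Q) := (specialIsometryGL F Q).subgroupOf (GO Q)

/-- The orthogonal group inside the similarities. -/
abbrev OG : Subgroup ↥(GO Q) := (isometryGroup F Q).subgroupOf (GO Q)

/-- `Ω` as a subgroup of the similarities. -/
abbrev ΩG : Subgroup ↥(GO Q) :=
  ((Omega F Q).map (isometryGroup F Q).subtype).subgroupOf (GO Q)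

theorem special_le_GO : specialIsometryGL F Q ≤ GO Q :=
  inf_le_left.trans isometry_le_GO

theorem psoAut_eq : psoAut F Q = (SOG Q).map (Phi Q) := by
  apply autSubgroupOf_eq
  intro β
  constructor
  · rintro ⟨g, hg, hi⟩
    exact ⟨⟨g, special_le_GO Q hg⟩, hg, eq_Phi_of_induced Q ⟨g, _⟩ hi⟩
  · rintro ⟨g, hg, rfl⟩
    exact ⟨g.1, hg, isInduced_Phi Q g⟩

theorem poAut_eq : poAut F Q = (OG Q).map (Phi Q) := by
  apply autSubgroupOf_eq
  intro β
  constructor
  · rintro ⟨g, hg, hi⟩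
    exact ⟨⟨g, isometry_le_GO hg⟩, hg, eq_Phi_of_induced Q ⟨g, _⟩ hi⟩
  · rintro ⟨g, hg, rfl⟩
    exact ⟨g.1, hg, isInduced_Phi Q g⟩

theorem Phi_of_omega (s : ↥(Omega F Q)) (hs : s.1.1 ∈ GO Q) :
    Phi Q ⟨s.1.1, hs⟩ = MulAut.conj (QuotientGroup.mk s : POmega F Q) := by
  apply MulEquiv.ext
  intro x
  induction x using QuotientGroup.induction_on with
  | H t =>
    rw [Phi_mk]
    show QuotientGroup.mk (conjΩ Q ⟨s.1.1, hs⟩ t) =
      (QuotientGroup.mk s : POmega F Q) * QuotientGroup.mk t * (QuotientGroup.mk s : POmega F Q)⁻¹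
    rw [← QuotientGroup.mk_mul, ← QuotientGroup.mk_inv, ← QuotientGroup.mk_mul]
    congr 1

theorem Inn_eq : Inn (POmega F Q) = (ΩG Q).map (Phi Q) := by
  ext β
  constructor
  · rintro ⟨x, rfl⟩
    induction x using QuotientGroup.induction_on with
    | H s =>
      have hs : s.1.1 ∈ GO Q := isometry_le_GO s.1.2
      refine ⟨⟨s.1.1, hs⟩, ?_, Phi_of_omega Q s hs⟩
      exact ⟨s.1, s.2, rfl⟩
  · rintro ⟨g, ⟨s, hs, hsg⟩, rfl⟩
    refine ⟨(QuotientGroup.mk ⟨s, hs⟩ : POmega F Q), ?_⟩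
    have h0 : s.1 = g.1 := hsg
    have h1 : (⟨s.1, h0 ▸ g.2⟩ : ↥(GO Q)) = g := Subtype.ext h0
    rw [← h1]
    exact (Phi_of_omega Q ⟨s, hs⟩ _).symm

theorem det_eq_one_of_mem_Omega {s : ↥(isometryGroup F Q)} (hs : s ∈ Omega F Q) :
    Matrix.GeneralLinearGroup.det s.1 = 1 := by
  have h1 : Omega F Q ≤ specialIsometryGroup F Q := by
    rw [Omega, commutator_def, Subgroup.commutator_le]
    intro a _ b _
    unfold specialIsometryGroup
    rw [MonoidHom.mem_ker, map_commutatorElement, commutatorElement_eq_one_iff_mul_comm, mul_comm]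
  have h3 := h1 hs
  unfold specialIsometryGroup at h3
  rw [MonoidHom.mem_ker] at h3
  exact h3

theorem ΩG_le_SOG : ΩG Q ≤ SOG Q := by
  rintro g ⟨s, hs, hsg⟩
  have h0 : s.1 = g.1 := hsg
  refine ⟨?_, ?_⟩
  · show g.1 ∈ isometryGroup F Q
    rw [← h0]
    exact s.2
  · show g.1 ∈ Geo.specialLinear ι F
    rw [← h0]
    exact det_eq_one_of_mem_Omega Q hs

theorem Inn_le_psoAut : Inn (POmega F Q) ≤ psoAut F Q := by
  rw [Inn_eq, psoAut_eq]
  exact Subgroup.map_mono (ΩG_le_SOG Q)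

theorem psoAut_le_pgoAut : psoAut F Q ≤ pgoAut F Q := by
  rw [pgoAut_eq, psoAut_eq]
  exact Subgroup.map_mono le_top

section kernel

open Cfsg.Agent.Lib.Classical.OmegaConj Cfsg.Agent.Lib.Classical.OmegaBar
open Cfsg.Agent.Lib.Classical.OmegaAut Cfsg.Agent.Lib.Classical.QuadEichBridge
open Cfsg.Agent.Lib.Classical.QuadEichSimple Cfsg.Agent.Lib.Classical.MatrixBridge

/-- The additive map of a matrix. -/
def addOf (g : GL ι F) : (ι → F) ≃+ (ι → F) where
  toFun x := (g : Matrix ι ι F) *ᵥ x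
  invFun x := ((g⁻¹ : GL ι F) : Matrix ι ι F) *ᵥ x
  left_inv x := inv_mulVec' g x
  right_inv x := inv_mulVec g x
  map_add' x y := Matrix.mulVec_add _ _ _

theorem addOf_apply (g : GL ι F) (x : ι → F) : addOf g x = (g : Matrix ι ι F) *ᵥ x := rfl

theorem addOf_symm_apply (g : GL ι F) (x : ι → F) : (addOf g).symm x = ((g⁻¹ : GL ι F) : Matrix ι ι F) *ᵥ x := rfl

variable (Q : QuadraticForm F (ι → F))

/-- A similarity is a semisimilarity. -/
theorem semi_of_similarity {g : GL ι F} {c : Fˣ} (hc : ∀ v, Q ((g : Matrix ι ι F) *ᵥ v) = (c : F) * Q v) :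
    Semi Q (addOf g) (RingEquiv.refl F) c where
  smul a x := by
    show (g : Matrix ι ι F) *ᵥ (a • x) = a • ((g : Matrix ι ι F) *ᵥ x)
    rw [Matrix.mulVec_smul]
  Q_eq x := hc x
  ne := c.ne_zero

variable [Fintype F]

theorem conjBar_eq (hQ : (polarBilin Q).Nondegenerate) (hn : 5 ≤ Fintype.card ι) (g : ↥(GO ⇑Q)) {c : Fˣ}
    (hc : ∀ v, Q ((g.1 : Matrix ι ι F) *ᵥ v) = (c : F) * Q v) (x : POmega F ⇑Q) :
    conjBar (semi_of_similarity Q hc)
        (Cfsg.Agent.Lib.Classical.SympSimple.quotientCenterEquiv (omegaEquiv Q hQ hn) x) =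
      Cfsg.Agent.Lib.Classical.SympSimple.quotientCenterEquiv (omegaEquiv Q hQ hn) (Phi ⇑Q g x) := by
  induction x using QuotientGroup.induction_on with
  | H s =>
    show pi Q (conjG (semi_of_similarity Q hc) (omegaEquiv Q hQ hn s)) =
      pi Q (omegaEquiv Q hQ hn (conjΩ ⇑Q g s))
    congr 1
    apply Subtype.ext
    apply LinearEquiv.ext
    intro x
    show (g.1 : Matrix ι ι F) *ᵥ ((s.1.1 : Matrix ι ι F) *ᵥ (((g.1⁻¹ : GL ι F) : Matrix ι ι F) *ᵥ x)) =
      ((g.1 * s.1.1 * g.1⁻¹ : GL ι F) : Matrix ι ι F) *ᵥ x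
    rw [mul_mulVec', mul_mulVec']

/-- The kernel of `Phi` consists of scalars. -/
theorem scalar_of_Phi_eq_one (hQ : (polarBilin Q).Nondegenerate) (hn : 5 ≤ Fintype.card ι) (g : ↥(GO ⇑Q))
    (h1 : Phi ⇑Q g = 1) : g.1 ∈ Geo.scalars ι F := by
  classical
  obtain ⟨p, hp⟩ := CharP.exists F
  haveI : Fact p.Prime := ⟨CharP.char_is_prime F p⟩
  obtain ⟨c, hc⟩ := g.2
  have hc' : ∀ v, Q ((g.1 : Matrix ι ι F) *ᵥ v) = (c : F) * Q v := hc
  have hfr : 5 ≤ Module.finrank F (ι → F) := by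
    rw [Module.finrank_fintype_fun_eq_card]
    exact hn
  set H := semi_of_similarity Q hc' with hH
  have hid : ∀ y : Gbar Q, conjBar H y = y := by
    intro y
    obtain ⟨x, rfl⟩ := (Cfsg.Agent.Lib.Classical.SympSimple.quotientCenterEquiv (omegaEquiv Q hQ hn)).surjective y
    rw [conjBar_eq Q hQ hn g hc', h1]
    rfl
  have hev : ∀ a : ι → F, a ≠ 0 → Q a = 0 → ∃ d : F, (glToLin g.1) a = d • a := by
    intro a ha0 ha
    have hga : Q ((addOf g.1) a) = 0 := by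
      show Q ((g.1 : Matrix ι ι F) *ᵥ a) = 0
      rw [hc', ha, mul_zero]
    have h3 := conjBar_Tb hQ p hfr H ha0 ha hga
    have h4 : (Tb ha).map (conjBar H).toMonoidHom = Tb ha := by
      ext y
      constructor
      · rintro ⟨z, hz, rfl⟩
        show conjBar H z ∈ Tb ha
        rw [hid]
        exact hz
      · intro hy
        exact ⟨y, hy, hid y⟩
    rw [h4] at h3
    by_contra hno
    push Not at hno
    exact Tb_ne hQ p hfr ha hga ha0 (fun s hs => hno s hs.symm) h3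
  obtain ⟨d, hd⟩ := scalar_of_eigen hQ hfr (glToLin g.1) hev
  have hd0 : d ≠ 0 := by
    rintro rfl
    have hι : Nonempty ι := Fintype.card_pos_iff.1 (by omega)
    obtain ⟨i⟩ := hι
    have h5 := hd (Pi.single i 1)
    rw [zero_smul] at h5
    have h6 : (Pi.single i 1 : ι → F) = 0 := (glToLin g.1).map_eq_zero_iff.1 h5
    have := congrFun h6 i
    simp at this
  rw [Geo.mem_scalars_iff]
  refine ⟨Units.mk0 d hd0, ?_⟩
  apply Matrix.toLin'.injective
  apply LinearMap.ext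
  intro x
  rw [Matrix.toLin'_apply, Matrix.toLin'_apply]
  have h7 := hd x
  show (g.1 : Matrix ι ι F) *ᵥ x = _
  have h8 : (glToLin g.1) x = (g.1 : Matrix ι ι F) *ᵥ x := rfl
  rw [← h8, h7]
  simp [Matrix.smul_mulVec]

/-- Scalars act trivially. -/
theorem Phi_eq_one_of_scalar (g : ↥(GO ⇑Q)) (h : g.1 ∈ Geo.scalars ι F) : Phi ⇑Q g = 1 := by
  obtain ⟨c, hc⟩ := (Geo.mem_scalars_iff _).1 h
  apply MulEquiv.ext
  intro x
  induction x using QuotientGroup.induction_on with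
  | H s =>
    rw [Phi_mk]
    show QuotientGroup.mk (conjΩ ⇑Q g s) = QuotientGroup.mk s
    congr 1
    apply Subtype.ext
    apply Subtype.ext
    show g.1 * s.1.1 * g.1⁻¹ = s.1.1
    have hcomm : g.1 * s.1.1 = s.1.1 * g.1 := by
      apply Units.ext
      rw [Units.val_mul, Units.val_mul, hc]
      simp
    rw [hcomm]
    group

theorem Phi_eq_one_iff (hQ : (polarBilin Q).Nondegenerate) (hn : 5 ≤ Fintype.card ι) (g : ↥(GO ⇑Q)) :
    Phi ⇑Q g = 1 ↔ g.1 ∈ Geo.scalars ι F :=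
  ⟨scalar_of_Phi_eq_one Q hQ hn g, Phi_eq_one_of_scalar Q g⟩

end kernel

end Cfsg.Agent.Lib.OutO.Induced
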