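/-
The multiplier and the sign characters of the similarity group.
-/
import Mathlib
import Cfsg.Agent.Lib.OutO.Induced
import Cfsg.Agent.Lib.OutO.GroupLemmas
import Cfsg.Agent.Lib.Reflect.Basic

set_option autoImplicit false

namespace Cfsg.Agent.Lib.OutO.Chars

open Matrix Cfsg QuadraticMap
open Cfsg.Agent.Lib.Orth.Bridge Cfsg.Agent.Lib.Orth.Closure Cfsg.Agent.Lib.Orth.Spin
open Cfsg.Agent.Lib.OutO.Induced

universe u

section sign

variable {F : Type u} [Field F]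

theorem units_sq_cases {x : Fˣ} (hx : x * x = 1) : x = 1 ∨ x = -1 := by
  have h1 : (x : F) * x = 1 := by
    have := congrArg Units.val hx
    simpa using this
  rcases mul_self_eq_one_iff.1 h1 with h | h
  · exact Or.inl (Units.ext h)
  · exact Or.inr (Units.ext (by simpa using h))

theorem neg_one_units_ne (h2 : (2 : F) ≠ 0) : (-1 : Fˣ) ≠ 1 := by
  intro h
  have h1 := congrArg Units.val h
  simp only [Units.val_neg, Units.val_one] at h1
  apply h2
  linear_combination -h1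

/-- The sign value. -/
noncomputable def sgnVal (x : Fˣ) : ZMod 2 := @ite _ (x = 1) (_root_.Classical.propDecidable _) 0 1

theorem sgnVal_one : sgnVal (1 : Fˣ) = 0 := by simp [sgnVal]

theorem sgnVal_eq_zero_iff {x : Fˣ} : sgnVal x = 0 ↔ x = 1 := by
  unfold sgnVal
  by_cases h : x = 1
  · simp [h]
  · simp [h]

theorem sgnVal_neg_one (h2 : (2 : F) ≠ 0) : sgnVal (-1 : Fˣ) = 1 := by
  unfold sgnVal
  simp [neg_one_units_ne h2]

/-- The sign of a character of square one. -/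
noncomputable def sgnHom {G : Type*} [Group G] (t : G →* Fˣ) (ht : ∀ g, t g * t g = 1) (h2 : (2 : F) ≠ 0) :
    G →* Multiplicative (ZMod 2) :=
  MonoidHom.mk' (fun g => Multiplicative.ofAdd (sgnVal (t g))) (by
    intro a b
    rw [← ofAdd_add]
    congr 1
    rw [map_mul]
    rcases units_sq_cases (ht a) with h | h <;> rcases units_sq_cases (ht b) with h' | h' <;>
      simp only [h, h', mul_one, one_mul, neg_mul_neg, sgnVal_one, sgnVal_neg_one h2, add_zero, zero_add]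
    decide)

theorem sgnHom_apply {G : Type*} [Group G] (t : G →* Fˣ) (ht : ∀ g, t g * t g = 1) (h2 : (2 : F) ≠ 0)
    (g : G) : sgnHom t ht h2 g = Multiplicative.ofAdd (sgnVal (t g)) := rfl

theorem sgnHom_eq_one_iff {G : Type*} [Group G] (t : G →* Fˣ) (ht : ∀ g, t g * t g = 1) (h2 : (2 : F) ≠ 0)
    (g : G) : sgnHom t ht h2 g = 1 ↔ t g = 1 := by
  rw [sgnHom_apply, ← sgnVal_eq_zero_iff]
  rfl

variable [Finite F]

/-- The square class character. -/
noncomputable def sqHom : Fˣ →* Multiplicative (ZMod 2) :=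
  MonoidHom.mk' (fun x => Multiplicative.ofAdd (sqc (x : F))) (by
    intro a b
    rw [← ofAdd_add, ← sqc_mul a.ne_zero b.ne_zero]
    rfl)

theorem sqHom_eq_one_iff (x : Fˣ) : sqHom x = 1 ↔ IsSquare (x : F) := by
  show Multiplicative.ofAdd (sqc (x : F)) = 1 ↔ _
  rw [← sqc_eq_zero_iff]
  rfl

end sign

section mult

variable {F : Type u} [Field F] {ι : Type} [Fintype ι] [DecidableEq ι]
  (Q : QuadraticForm F (ι → F)) (hv : ∃ v, Q v ≠ 0)

include hv

theorem mult_unique {g : GL ι F} {c d : Fˣ} (hc : ∀ v, Q ((g : Matrix ι ι F) *ᵥ v) = (c : F) * Q v)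
    (hd : ∀ v, Q ((g : Matrix ι ι F) *ᵥ v) = (d : F) * Q v) : c = d := by
  obtain ⟨v, hv⟩ := hv
  apply Units.ext
  have := (hc v).symm.trans (hd v)
  exact mul_right_cancel₀ hv this

/-- The multiplier character. -/
noncomputable def mult : ↥(GO ⇑Q) →* Fˣ :=
  MonoidHom.mk' (fun g => Classical.choose g.2) (by
    intro a b
    apply mult_unique Q hv (g := (a * b : ↥(GO ⇑Q)).1) (Classical.choose_spec (a * b).2)
    intro v
    have h1 : ((a * b : ↥(GO ⇑Q)).1 : Matrix ι ι F) *ᵥ v = (a.1 : Matrix ι ι F) *ᵥ ((b.1 : Matrix ι ι F) *ᵥ v) :=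
      mul_mulVec' a.1 b.1 v
    rw [h1]
    have h3 := Classical.choose_spec a.2 ((b.1 : Matrix ι ι F) *ᵥ v)
    have h4 := Classical.choose_spec b.2 v
    rw [h3, h4, Units.val_mul, mul_assoc])

theorem mult_spec (g : ↥(GO ⇑Q)) (v : ι → F) :
    Q ((g.1 : Matrix ι ι F) *ᵥ v) = (mult Q hv g : F) * Q v :=
  Classical.choose_spec g.2 v

theorem mult_eq {g : ↥(GO ⇑Q)} {c : Fˣ} (hc : ∀ v, Q ((g.1 : Matrix ι ι F) *ᵥ v) = (c : F) * Q v) :
    mult Q hv g = c :=
  mult_unique Q hv (mult_spec Q hv g) hc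

theorem polar_mult (g : ↥(GO ⇑Q)) (x y : ι → F) :
    polar Q ((g.1 : Matrix ι ι F) *ᵥ x) ((g.1 : Matrix ι ι F) *ᵥ y) = (mult Q hv g : F) * polar Q x y := by
  simp only [polar]
  rw [← Matrix.mulVec_add, mult_spec Q hv, mult_spec Q hv, mult_spec Q hv]
  ring

/-- The Gram matrix. -/
noncomputable abbrev gram (Q : QuadraticForm F (ι → F)) : Matrix ι ι F :=
  Matrix.of (fun i j : ι => polar ⇑Q (Pi.single i 1) (Pi.single j 1))

omit hv in
theorem gram_det_ne (hQ : (polarBilin Q).Nondegenerate) : (gram Q).det ≠ 0 := by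
  intro h0
  obtain ⟨v, hv0, hv⟩ := Matrix.exists_mulVec_eq_zero_iff.2 h0
  apply hv0
  apply hQ.2
  intro u
  show polar ⇑Q u v = 0
  rw [Cfsg.Agent.Lib.Orth.Forms.polar_eq_gram, hv, dotProduct_zero]

theorem det_sq (hQ : (polarBilin Q).Nondegenerate) (g : ↥(GO ⇑Q)) :
    (g.1 : Matrix ι ι F).det * (g.1 : Matrix ι ι F).det = (mult Q hv g : F) ^ Fintype.card ι := by
  have h1 : (g.1 : Matrix ι ι F)ᵀ * gram Q * (g.1 : Matrix ι ι F) = (mult Q hv g : F) • gram Q := by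
    have key : ∀ (M : Matrix ι ι F) (i j : ι), M i j = (Pi.single i 1 : ι → F) ⬝ᵥ (M *ᵥ (Pi.single j 1 : ι → F)) := by
      intro M i j
      simp
    ext i j
    have h3 := polar_mult Q hv g (Pi.single i 1) (Pi.single j 1)
    rw [Cfsg.Agent.Lib.Orth.Forms.polar_eq_gram] at h3
    rw [Matrix.smul_apply, smul_eq_mul, key ((g.1 : Matrix ι ι F)ᵀ * gram Q * (g.1 : Matrix ι ι F)) i j, ← Matrix.mulVec_mulVec, ← Matrix.mulVec_mulVec,
      Matrix.dotProduct_mulVec, Matrix.vecMul_transpose]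
    exact h3
  have h3 := congrArg Matrix.det h1
  rw [Matrix.det_mul, Matrix.det_mul, Matrix.det_transpose, Matrix.det_smul] at h3
  have h4 := gram_det_ne Q hQ
  apply mul_right_cancel₀ h4
  linear_combination h3

/-- The determinant character. -/
noncomputable def detU (Q : (ι → F) → F) : ↥(GO Q) →* Fˣ :=
  (Matrix.GeneralLinearGroup.det).comp (GO Q).subtype

omit hv in
theorem detU_val (Q : (ι → F) → F) (g : ↥(GO Q)) : ((detU Q g : Fˣ) : F) = (g.1 : Matrix ι ι F).det := rfl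

/-- The character `det g / μ(g)^k`. -/
noncomputable def tHom (k : ℕ) : ↥(GO ⇑Q) →* Fˣ :=
  detU ⇑Q * ((mult Q hv)⁻¹) ^ k

theorem tHom_apply (k : ℕ) (g : ↥(GO ⇑Q)) : tHom Q hv k g = detU ⇑Q g * ((mult Q hv g)⁻¹) ^ k := rfl

theorem tHom_eq_one_iff (k : ℕ) (g : ↥(GO ⇑Q)) :
    tHom Q hv k g = 1 ↔ (g.1 : Matrix ι ι F).det = (mult Q hv g : F) ^ k := by
  rw [tHom_apply, inv_pow, mul_inv_eq_one, Units.ext_iff, detU_val, Units.val_pow_eq_pow_val]

theorem tHom_sq (hQ : (polarBilin Q).Nondegenerate) {k : ℕ} (hk : Fintype.card ι = 2 * k) (g : ↥(GO ⇑Q)) :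
    tHom Q hv k g * tHom Q hv k g = 1 := by
  rw [tHom_apply]
  have h1 : detU ⇑Q g * detU ⇑Q g = (mult Q hv g) ^ (2 * k) := by
    apply Units.ext
    rw [Units.val_mul, detU_val, det_sq Q hv hQ g, hk, Units.val_pow_eq_pow_val]
  calc detU ⇑Q g * ((mult Q hv g)⁻¹) ^ k * (detU ⇑Q g * ((mult Q hv g)⁻¹) ^ k)
      = (detU ⇑Q g * detU ⇑Q g) * (((mult Q hv g)⁻¹) ^ k * ((mult Q hv g)⁻¹) ^ k) := by
        exact mul_mul_mul_comm _ _ _ _
    _ = 1 := by
        rw [h1, ← pow_add, inv_pow, two_mul]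
        exact mul_inv_cancel _

end mult

section chi

variable {F : Type u} [Field F] [Fintype F] {ι : Type} [Fintype ι] [DecidableEq ι]
  (Q : QuadraticForm F (ι → F)) (hv : ∃ v, Q v ≠ 0)

/-- The multiplier class. -/
noncomputable def sqμ : ↥(GO ⇑Q) →* Multiplicative (ZMod 2) := sqHom.comp (mult Q hv)

theorem sqμ_eq_one_iff (g : ↥(GO ⇑Q)) : sqμ Q hv g = 1 ↔ IsSquare (mult Q hv g : F) :=
  sqHom_eq_one_iff _

/-- The class of `det / μ^k`. -/
noncomputable def ε (hQ : (polarBilin Q).Nondegenerate) (h2 : (2 : F) ≠ 0) {k : ℕ}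
    (hk : Fintype.card ι = 2 * k) : ↥(GO ⇑Q) →* Multiplicative (ZMod 2) :=
  sgnHom (tHom Q hv k) (tHom_sq Q hv hQ hk) h2

theorem ε_eq_one_iff (hQ : (polarBilin Q).Nondegenerate) (h2 : (2 : F) ≠ 0) {k : ℕ}
    (hk : Fintype.card ι = 2 * k) (g : ↥(GO ⇑Q)) :
    ε Q hv hQ h2 hk g = 1 ↔ (g.1 : Matrix ι ι F).det = (mult Q hv g : F) ^ k := by
  rw [ε, sgnHom_eq_one_iff, tHom_eq_one_iff]

/-- Elements of `GO` with square multiplier and `det = μ^k` are products of a special isometry and a scalar. -/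
theorem exists_decomp (hQ : (polarBilin Q).Nondegenerate) (h2 : (2 : F) ≠ 0) {k : ℕ}
    (hk : Fintype.card ι = 2 * k) (g : ↥(GO ⇑Q)) (h1 : IsSquare (mult Q hv g : F))
    (h3 : (g.1 : Matrix ι ι F).det = (mult Q hv g : F) ^ k) :
    ∃ s ∈ SOG ⇑Q, ∃ z : ↥(GO ⇑Q), z.1 ∈ Geo.scalars ι F ∧ g = s * z := by
  obtain ⟨c, hc⟩ := h1
  have hc0 : c ≠ 0 := by
    rintro rfl
    exact (mult Q hv g).ne_zero (by rw [hc, mul_zero])
  let cu : Fˣ := Units.mk0 c hc0
  let zG : GL ι F := Units.map (Matrix.scalar ι : F →+* Matrix ι ι F).toMonoidHom cu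
  have hzval : (zG : Matrix ι ι F) = c • (1 : Matrix ι ι F) := by
    show Matrix.scalar ι c = _
    ext i j
    simp [Matrix.scalar_apply, Matrix.one_apply, Matrix.diagonal_apply]
  have hzsc : zG ∈ Geo.scalars ι F := ⟨cu, rfl⟩
  have hzQ : ∀ v, Q ((zG : Matrix ι ι F) *ᵥ v) = (cu * cu : Fˣ) * Q v := by
    intro v
    rw [hzval, Matrix.smul_mulVec, Matrix.one_mulVec, QuadraticMap.map_smul]
    simp [cu]
  have hzG : zG ∈ GO ⇑Q := ⟨cu * cu, hzQ⟩
  let z : ↥(GO ⇑Q) := ⟨zG, hzG⟩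
  have hμz : mult Q hv z = cu * cu := mult_eq Q hv hzQ
  have hμg : mult Q hv g = cu * cu := by
    apply Units.ext
    rw [hc]
    rfl
  refine ⟨g * z⁻¹, ?_, z, hzsc, by group⟩
  have hdetz : (zG : Matrix ι ι F).det = c ^ (2 * k) := by
    rw [hzval, Matrix.det_smul, Matrix.det_one, hk, mul_one]
  have hμs : mult Q hv (g * z⁻¹) = 1 := by
    rw [map_mul, map_inv, hμz, hμg, mul_inv_cancel]
  constructor
  · show ((g * z⁻¹ : ↥(GO ⇑Q)).1) ∈ isometryGroup F ⇑Q
    rw [mem_isometryGroup_iff]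
    intro v
    rw [mult_spec Q hv, hμs]
    simp
  · show ((g * z⁻¹ : ↥(GO ⇑Q)).1) ∈ Geo.specialLinear ι F
    rw [Geo.specialLinear, MonoidHom.mem_ker]
    apply Units.ext
    have e1 : ((Matrix.GeneralLinearGroup.det ((g * z⁻¹ : ↥(GO ⇑Q)).1) : Fˣ) : F) *
        (zG : Matrix ι ι F).det = (g.1 : Matrix ι ι F).det := by
      have : (g * z⁻¹ : ↥(GO ⇑Q)).1 * zG = g.1 := by
        show g.1 * zG⁻¹ * zG = g.1
        group
      have h5 := congrArg (fun x : GL ι F => (x : Matrix ι ι F).det) this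
      simp only [Units.val_mul, Matrix.det_mul] at h5
      exact h5
    have hdetz0 : (zG : Matrix ι ι F).det ≠ 0 := by
      rw [hdetz]
      exact pow_ne_zero _ hc0
    apply mul_right_cancel₀ hdetz0
    rw [e1, h3, hc, hdetz, Units.val_one, one_mul, pow_mul, _root_.sq, mul_pow]

end chi

end Cfsg.Agent.Lib.OutO.Chars
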