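/-
The structure of `PGO/PΩ` etc. for a quadratic form in even dimension, odd characteristic, given a
similarity `X` of non-square multiplier with `X² ` scalar.
-/
import Mathlib
import Cfsg.Agent.Lib.OutO.Chars

set_option autoImplicit false

namespace Cfsg.Agent.Lib.OutO.Main

open Matrix Cfsg QuadraticMap
open Cfsg.Agent.Lib.Orth.Bridge Cfsg.Agent.Lib.Orth.Closure Cfsg.Agent.Lib.Orth.Spin
open Cfsg.Agent.Lib.OutO.Induced Cfsg.Agent.Lib.OutO.Chars Cfsg.Agent.Lib.OutO.GroupLemmas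

universe u

section setup

variable {F : Type u} [Field F] {ι : Type} [Fintype ι] [DecidableEq ι]
  (Q : QuadraticForm F (ι → F))

/-- A similarity of non-square multiplier whose square is scalar. -/
structure XData (k : ℕ) where
  X : GL ι F
  ν : Fˣ
  hν : ¬ IsSquare (ν : F)
  hXQ : ∀ v, Q ((X : Matrix ι ι F) *ᵥ v) = (ν : F) * Q v
  hX2 : (X : Matrix ι ι F) * X = (ν : F) • 1
  hdet : (X : Matrix ι ι F).det = (-(ν : F)) ^ k

variable {Q}

/-- The inclusion of the orthogonal group in the similarity group. -/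
abbrev incO : ↥(isometryGroup F ⇑Q) →* ↥(GO ⇑Q) := Subgroup.inclusion isometry_le_GO

/-- The action of the orthogonal group on `PΩ`. -/
noncomputable abbrev Φ₁ : ↥(isometryGroup F ⇑Q) →* MulAut (POmega F ⇑Q) := (Phi ⇑Q).comp incO

theorem Inn_eq' : Inn (POmega F ⇑Q) = (Omega F ⇑Q).map Φ₁ := by
  rw [Inn_eq]
  ext x
  constructor
  · rintro ⟨g, ⟨s, hs, hsg⟩, rfl⟩
    refine ⟨s, hs, ?_⟩
    have : incO s = g := Subtype.ext hsg
    show (Phi ⇑Q) (incO s) = _
    rw [this]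
  · rintro ⟨s, hs, rfl⟩
    exact ⟨incO s, ⟨s, hs, rfl⟩, rfl⟩

theorem psoAut_eq' : psoAut F ⇑Q = (specialIsometryGroup F ⇑Q).map Φ₁ := by
  rw [psoAut_eq]
  ext x
  constructor
  · rintro ⟨g, ⟨hg1, hg2⟩, rfl⟩
    refine ⟨⟨g.1, hg1⟩, ?_, rfl⟩
    show (Matrix.GeneralLinearGroup.det.comp (isometryGroup F ⇑Q).subtype) _ = 1
    exact hg2
  · rintro ⟨s, hs, rfl⟩
    refine ⟨incO s, ⟨s.2, ?_⟩, rfl⟩
    exact hs

variable [Fintype F]

/-- The kernel of the action of the orthogonal group. -/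
theorem Φ₁_eq_one (hQ : (polarBilin Q).Nondegenerate) (hn : 5 ≤ Fintype.card ι) (hv : ∃ v, Q v ≠ 0)
    (g : ↥(isometryGroup F ⇑Q)) (h : Φ₁ g = 1) :
    g = 1 ∨ ((g : GL ι F) : Matrix ι ι F) = -1 := by
  have h1 := scalar_of_Phi_eq_one Q hQ hn (incO g) h
  obtain ⟨c, hc⟩ := (Geo.mem_scalars_iff _).1 h1
  have hc' : ((g : GL ι F) : Matrix ι ι F) = (c : F) • (1 : Matrix ι ι F) := hc
  obtain ⟨v, hv⟩ := hv
  have h3 := (mem_isometryGroup_iff _ _).1 g.2 v
  rw [hc', Matrix.smul_mulVec, Matrix.one_mulVec, QuadraticMap.map_smul, smul_eq_mul] at h3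
  have h4 : (c : F) * c = 1 := by
    apply mul_right_cancel₀ hv
    rw [h3, one_mul]
  rcases mul_self_eq_one_iff.1 h4 with h5 | h5
  · left
    apply Subtype.ext
    apply Units.ext
    rw [hc', h5, one_smul]
    rfl
  · right
    rw [hc', h5, neg_smul, one_smul]

/-- The element `-1`. -/
noncomputable def negO (Q : QuadraticForm F (ι → F)) : isometryGroup F ⇑Q :=
  ⟨-1, (mem_isometryGroup_iff _ _).mpr (fun x => by
    show Q (((-1 : Matrix ι ι F)) *ᵥ x) = Q x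
    rw [Matrix.neg_mulVec, Matrix.one_mulVec, QuadraticMap.map_neg])⟩

theorem negO_val : ((negO Q : isometryGroup F ⇑Q) : GL ι F).val = -1 := by
  simp [negO]

/-- `-1 ∈ Ω`. -/
def NegIn (Q : QuadraticForm F (ι → F)) : Prop :=
  ∃ g : isometryGroup F ⇑Q, g ∈ Omega F ⇑Q ∧ ((g : GL ι F) : Matrix ι ι F) = -1

theorem negIn_iff : NegIn Q ↔ negO Q ∈ Omega F ⇑Q := by
  constructor
  · rintro ⟨g, hg, hgm⟩
    have : g = negO Q := by
      apply Subtype.ext
      apply Units.ext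
      rw [hgm, negO_val]
    rwa [← this]
  · intro h
    exact ⟨_, h, negO_val⟩

theorem Φ₁_negO (hdim : 1 ≤ Fintype.card ι) : Φ₁ (negO Q) = 1 := by
  apply Phi_eq_one_of_scalar
  rw [Geo.mem_scalars_iff]
  refine ⟨-1, ?_⟩
  show ((negO Q : isometryGroup F ⇑Q) : GL ι F).val = _
  rw [negO_val]
  simp

/-- If `-1 ∈ Ω`, an isometry acting as an inner automorphism lies in `Ω`. -/
theorem mem_Omega_of_Inn (hQ : (polarBilin Q).Nondegenerate) (hn : 5 ≤ Fintype.card ι) (hv : ∃ v, Q v ≠ 0)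
    (hneg : NegIn Q) (g : ↥(isometryGroup F ⇑Q)) (h : Φ₁ g ∈ Inn (POmega F ⇑Q)) : g ∈ Omega F ⇑Q := by
  rw [Inn_eq'] at h
  obtain ⟨w, hw, hwg⟩ := h
  have h1 : Φ₁ (w⁻¹ * g) = 1 := by
    rw [map_mul, map_inv, ← hwg, inv_mul_cancel]
  have hgw : g = w * (w⁻¹ * g) := by group
  rw [hgw]
  apply (Omega F ⇑Q).mul_mem hw
  rcases Φ₁_eq_one hQ hn hv _ h1 with h3 | h3
  · rw [h3]
    exact (Omega F ⇑Q).one_mem
  · have : w⁻¹ * g = negO Q := by
      apply Subtype.ext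
      apply Units.ext
      rw [h3, negO_val]
    rw [this]
    exact negIn_iff.1 hneg

/-- The word of length two. -/
theorem rr_mem_Omega_iff (hQ : (polarBilin Q).Nondegenerate) (h2 : (2 : F) ≠ 0) {u v : ι → F}
    (hu : Q u ≠ 0) (hv : Q v ≠ 0) :
    reflEl Q u * reflEl Q v ∈ Omega F ⇑Q ↔ IsSquare (Q u * Q v) := by
  have hc := card_ne_two_of_two_ne h2
  have := word_mem_Omega_iff Q hQ (Or.inl hc) (reflEl Q u * reflEl Q v) [u, v] (by
    intro w hw
    simp only [List.mem_cons, List.not_mem_nil, or_false] at hw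
    rcases hw with rfl | rfl
    · exact hu
    · exact hv) (by
      simp only [List.map_cons, List.map_nil, List.prod_cons, List.prod_nil, mul_one, Subgroup.coe_mul,
        Units.val_mul, reflEl_val])
  rw [this]
  simp

theorem det_reflEl {v : ι → F} (hv : Q v ≠ 0) :
    Matrix.GeneralLinearGroup.det (reflEl Q v : isometryGroup F ⇑Q).1 = -1 := by
  apply Units.ext
  show ((reflEl Q v : isometryGroup F ⇑Q).1 : Matrix ι ι F).det = _
  rw [reflEl_val, Cfsg.Agent.Lib.Reflect.Basic.reflection_det Q v hv]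
  simp

theorem refl_mul_similarity {X : GL ι F} {c : Fˣ}
    (hX : ∀ v, Q ((X : Matrix ι ι F) *ᵥ v) = (c : F) * Q v) {w : ι → F} (hw : Q w ≠ 0) :
    reflectionMatrix ⇑Q ((X : Matrix ι ι F) *ᵥ w) * (X : Matrix ι ι F) =
      (X : Matrix ι ι F) * reflectionMatrix ⇑Q w := by
  apply Matrix.mulVec_injective
  funext x
  rw [← Matrix.mulVec_mulVec, ← Matrix.mulVec_mulVec, Cfsg.Agent.Lib.Reflect.Basic.reflectionMatrix_mulVec,
    Cfsg.Agent.Lib.Reflect.Basic.reflectionMatrix_mulVec, Matrix.mulVec_sub, Matrix.mulVec_smul]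
  congr 2
  have hp : polar ⇑Q ((X : Matrix ι ι F) *ᵥ w) ((X : Matrix ι ι F) *ᵥ x) = (c : F) * polar ⇑Q w x := by
    simp only [polar]
    rw [← Matrix.mulVec_add, hX, hX, hX]
    ring
  rw [hp, hX]
  have hc0 : (c : F) ≠ 0 := c.ne_zero
  field_simp

end setup

end Cfsg.Agent.Lib.OutO.Main
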