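/-
The groups `PGO/PSO`, `PSO/T`, `PGO/T`, `Inndiag/T`, given a similarity `X`.
-/
import Mathlib
import Cfsg.Agent.Lib.OutO.Main

set_option autoImplicit false

namespace Cfsg.Agent.Lib.OutO.Struct

open Matrix Cfsg QuadraticMap
open Cfsg.Agent.Lib.Orth.Bridge Cfsg.Agent.Lib.Orth.Closure Cfsg.Agent.Lib.Orth.Spin
open Cfsg.Agent.Lib.OutO.Induced Cfsg.Agent.Lib.OutO.Chars Cfsg.Agent.Lib.OutO.GroupLemmas
open Cfsg.Agent.Lib.OutO.Main

universe u

theorem m2_cases : ∀ x : Multiplicative (ZMod 2), x = 1 ∨ x = Multiplicative.ofAdd 1 := by decide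

theorem m2_eq {x y : Multiplicative (ZMod 2)} (hx : x ≠ 1) (hy : y ≠ 1) : x = y := by
  rcases m2_cases x with h | h
  · exact absurd h hx
  · rcases m2_cases y with h' | h'
    · exact absurd h' hy
    · rw [h, h']

theorem m2_mul_self : ∀ x : Multiplicative (ZMod 2), x * x = 1 := by decide

theorem m2_mul_of_ne : ∀ x y z : Multiplicative (ZMod 2), x ≠ z → y ≠ 1 → x * y = z := by decide

theorem m2_surj {G : Type*} [Group G] (f : G →* Multiplicative (ZMod 2)) (a : G) (ha : f a ≠ 1) :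
    Function.Surjective f := by
  intro x
  by_cases hx : x = 1
  · exact ⟨1, by rw [hx, map_one]⟩
  · exact ⟨a, m2_eq ha hx⟩

theorem surj_prod {G : Type*} [Group G] (χ₁ χ₂ : G →* Multiplicative (ZMod 2)) (a b : G) (h1 : χ₁ a = 1)
    (h3 : χ₂ a ≠ 1) (h4 : χ₁ b ≠ 1) : Function.Surjective (χ₁.prod χ₂) := by
  rintro ⟨x, y⟩
  by_cases hx : x = 1
  · by_cases hy : y = 1
    · exact ⟨1, by simp [hx, hy]⟩
    · exact ⟨a, Prod.ext (h1.trans hx.symm) (m2_eq h3 hy)⟩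
  · by_cases hyb : χ₂ b = y
    · exact ⟨b, Prod.ext (m2_eq h4 hx) hyb⟩
    · refine ⟨b * a, Prod.ext ?_ ?_⟩
      · show χ₁ (b * a) = x
        rw [map_mul, h1, mul_one]
        exact m2_eq h4 hx
      · show χ₂ (b * a) = y
        rw [map_mul]
        exact m2_mul_of_ne _ _ _ hyb h3

section main

variable {F : Type u} [Field F] [Fintype F] {ι : Type} [Fintype ι] [DecidableEq ι]
  {Q : QuadraticForm F (ι → F)}

theorem hv_of (hQ : (polarBilin Q).Nondegenerate) (hne : 1 ≤ Fintype.card ι) : ∃ v, Q v ≠ 0 := by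
  have : Nonempty ι := Fintype.card_pos_iff.1 hne
  exact exists_nonsingular Q hQ

variable (hv : ∃ v, Q v ≠ 0)

include hv in
theorem mult_incO (g : ↥(isometryGroup F ⇑Q)) : mult Q hv (incO g) = 1 := by
  apply mult_eq Q hv
  intro v
  have := (mem_isometryGroup_iff _ _).1 g.2 v
  simpa using this

/-- `gX`. -/
def gX {k : ℕ} (D : XData Q k) : ↥(GO ⇑Q) := ⟨D.X, D.ν, D.hXQ⟩

include hv in
theorem mult_gX {k : ℕ} (D : XData Q k) : mult Q hv (gX D) = D.ν := mult_eq Q hv D.hXQ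

theorem gX_sq_scalar {k : ℕ} (D : XData Q k) : (gX D * gX D).1 ∈ Geo.scalars ι F := by
  rw [Geo.mem_scalars_iff]
  exact ⟨D.ν, D.hX2⟩

/-- The relation between the reflections and `X`. -/
theorem gX_mul_r {k : ℕ} (D : XData Q k) {w : ι → F} (hw : Q w ≠ 0) :
    gX D * incO (reflEl Q w) = incO (reflEl Q ((D.X : Matrix ι ι F) *ᵥ w)) * gX D := by
  apply Subtype.ext
  apply Units.ext
  show (D.X : Matrix ι ι F) * ((reflEl Q w : isometryGroup F ⇑Q) : GL ι F).val =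
    ((reflEl Q ((D.X : Matrix ι ι F) *ᵥ w) : isometryGroup F ⇑Q) : GL ι F).val * D.X
  rw [reflEl_val, reflEl_val, refl_mul_similarity D.hXQ hw]

theorem reflEl_mul_self {w : ι → F} (hw : Q w ≠ 0) : reflEl Q w * reflEl Q w = 1 := by
  apply Subtype.ext
  apply Units.ext
  show ((reflEl Q w : isometryGroup F ⇑Q) : GL ι F).val * ((reflEl Q w : isometryGroup F ⇑Q) : GL ι F).val = 1
  rw [reflEl_val]
  exact Cfsg.Agent.Lib.Reflect.Basic.reflection_sq Q w hw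

variable (hQ : (polarBilin Q).Nondegenerate) (h2 : (2 : F) ≠ 0) {k : ℕ}
  (hk : Fintype.card ι = 2 * k) (hk3 : 3 ≤ k)

/-- The pair of characters. -/
noncomputable def χ : ↥(GO ⇑Q) →* Multiplicative (ZMod 2 × ZMod 2) :=
  (MulEquiv.prodMultiplicative (G := ZMod 2) (H := ZMod 2)).symm.toMonoidHom.comp ((sqμ Q hv).prod (ε Q hv hQ h2 hk))

theorem χ_eq_one_iff (g : ↥(GO ⇑Q)) :
    χ hv hQ h2 hk g = 1 ↔ sqμ Q hv g = 1 ∧ ε Q hv hQ h2 hk g = 1 := by
  rw [χ, MonoidHom.comp_apply]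
  show (MulEquiv.prodMultiplicative (G := ZMod 2) (H := ZMod 2)).symm _ = 1 ↔ _
  rw [map_eq_one_iff _ (MulEquiv.injective _), MonoidHom.prod_apply, Prod.mk_eq_one]

theorem χ_eq_one_iff' (g : ↥(GO ⇑Q)) :
    χ hv hQ h2 hk g = 1 ↔ IsSquare (mult Q hv g : F) ∧ (g.1 : Matrix ι ι F).det = (mult Q hv g : F) ^ k := by
  rw [χ_eq_one_iff, sqμ_eq_one_iff, ε_eq_one_iff]

theorem χ_surj (D : XData Q k) : Function.Surjective (χ hv hQ h2 hk) := by
  have h0 : Function.Surjective ((sqμ Q hv).prod (ε Q hv hQ h2 hk)) := by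
    obtain ⟨w, hw⟩ := hv
    apply surj_prod (sqμ Q ⟨w, hw⟩) (ε Q ⟨w, hw⟩ hQ h2 hk) (incO (reflEl Q w)) (gX D)
    · rw [sqμ_eq_one_iff, mult_incO]
      simp
    · rw [Ne, ε_eq_one_iff, mult_incO]
      show ¬ ((reflEl Q w : isometryGroup F ⇑Q) : GL ι F).val.det = ((1 : Fˣ) : F) ^ k
      rw [reflEl_val, Cfsg.Agent.Lib.Reflect.Basic.reflection_det Q w hw]
      intro h
      apply h2
      simp only [Units.val_one, one_pow] at h
      linear_combination -h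
    · rw [Ne, sqμ_eq_one_iff, mult_gX]
      exact D.hν
  show Function.Surjective ((MulEquiv.prodMultiplicative (G := ZMod 2) (H := ZMod 2)).symm.toMonoidHom.comp _)
  exact (MulEquiv.surjective (MulEquiv.prodMultiplicative (G := ZMod 2) (H := ZMod 2)).symm).comp h0

include hQ hk hk3 in
theorem facts_of_Phi_eq_one (g : ↥(GO ⇑Q)) (h : Phi ⇑Q g = 1) :
    IsSquare (mult Q hv g : F) ∧ (g.1 : Matrix ι ι F).det = (mult Q hv g : F) ^ k := by
  have h5 : 5 ≤ Fintype.card ι := by omega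
  have h1 := scalar_of_Phi_eq_one Q hQ h5 g h
  obtain ⟨c, hc⟩ := (Geo.mem_scalars_iff _).1 h1
  have hc' : ((g.1 : GL ι F) : Matrix ι ι F) = (c : F) • (1 : Matrix ι ι F) := hc
  have hm : mult Q hv g = c * c := by
    apply mult_eq Q hv
    intro v
    rw [hc', Matrix.smul_mulVec, Matrix.one_mulVec, QuadraticMap.map_smul, smul_eq_mul]
    simp
  refine ⟨⟨c, by rw [hm]; simp⟩, ?_⟩
  rw [hc', hm, Matrix.det_smul, Matrix.det_one, hk, mul_one, pow_mul, _root_.sq]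
  simp

include hQ hk hk3 in
theorem ker_Phi_le : (Phi ⇑Q).ker ≤ (χ hv hQ h2 hk).ker := by
  intro g hg
  rw [MonoidHom.mem_ker, χ_eq_one_iff']
  exact facts_of_Phi_eq_one hv hQ hk hk3 g hg

theorem map_ker_χ : (χ hv hQ h2 hk).ker.map (Phi ⇑Q) = psoAut F ⇑Q := by
  rw [psoAut_eq]
  apply le_antisymm
  · rintro _ ⟨g, hg, rfl⟩
    rw [SetLike.mem_coe, MonoidHom.mem_ker, χ_eq_one_iff'] at hg
    obtain ⟨s, hs, z, hz, hg'⟩ := exists_decomp Q hv hQ h2 hk g hg.1 hg.2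
    refine ⟨s, hs, ?_⟩
    show Phi ⇑Q s = Phi ⇑Q g
    rw [hg', map_mul, Phi_eq_one_of_scalar _ z hz, mul_one]
  · rintro _ ⟨s, hs, rfl⟩
    refine ⟨s, ?_, rfl⟩
    rw [SetLike.mem_coe, MonoidHom.mem_ker, χ_eq_one_iff']
    have hm : mult Q hv s = 1 := by
      apply mult_eq Q hv
      intro v
      have := (mem_isometryGroup_iff _ _).1 hs.1 v
      simpa using this
    rw [hm]
    refine ⟨by simp, ?_⟩
    have h3 : Matrix.GeneralLinearGroup.det s.1 = 1 := hs.2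
    have h4 := congrArg Units.val h3
    simpa using h4

include hv hQ h2 hk hk3 in
/-- **T1**: `PGO/PSO` is a Klein four group. -/
theorem T1 (D : XData Q k) :
    ∃ φ : ↥(pgoAut F ⇑Q) →* Multiplicative (ZMod 2 × ZMod 2), Function.Surjective φ ∧
      φ.ker = (psoAut F ⇑Q).subgroupOf (pgoAut F ⇑Q) := by
  apply descend (Phi ⇑Q) (χ hv hQ h2 hk) (ker_Phi_le hv hQ h2 hk hk3) (χ_surj hv hQ h2 hk D)
  · rw [pgoAut_eq, MonoidHom.range_eq_map]
  · exact (map_ker_χ hv hQ h2 hk).symm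

/-! ### `PSO/T` -/

theorem mem_SO_iff (s : ↥(isometryGroup F ⇑Q)) :
    s ∈ specialIsometryGroup F ⇑Q ↔ (s.1 : Matrix ι ι F).det = 1 := by
  unfold specialIsometryGroup
  rw [MonoidHom.mem_ker]
  constructor
  · intro h
    have := congrArg Units.val h
    simpa using this
  · intro h
    apply Units.ext
    simpa using h

variable (h' : Fintype.card F ≠ 2 ∨ Fintype.card ι ≠ 4)

theorem fst_invHom_word (vs : List (ι → F)) (hvs : ∀ v ∈ vs, Q v ≠ 0) :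
    (invHom Q hQ h' (vs.map (reflEl Q)).prod).1 = (Multiplicative.ofAdd (1 : ZMod 2)) ^ vs.length := by
  induction vs with
  | nil => simp
  | cons v vs ih =>
    simp only [List.map_cons, List.prod_cons, map_mul, Prod.fst_mul, List.length_cons]
    rw [ih (fun w hw => hvs w (by simp [hw])), invHom_reflEl Q hQ h' v (hvs v (by simp)), pow_succ']

include h2 in
theorem fst_invHom_of_SO (s : ↥(isometryGroup F ⇑Q)) (hs : s ∈ specialIsometryGroup F ⇑Q) :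
    (invHom Q hQ h' s).1 = 1 := by
  obtain ⟨vs, hvs, rfl⟩ := exists_word Q hQ h' s
  rw [fst_invHom_word hQ h' vs hvs]
  rw [mem_SO_iff, word_val, det_word Q vs hvs] at hs
  have he : Even vs.length := by
    by_contra hodd
    rw [Nat.not_even_iff_odd] at hodd
    rw [hodd.neg_one_pow] at hs
    apply h2
    linear_combination -hs
  obtain ⟨n, hn⟩ := he
  rw [hn, pow_add]
  exact m2_mul_self _

include h2 in
theorem mem_Omega_iff_snd (s : ↥(isometryGroup F ⇑Q)) (hs : s ∈ specialIsometryGroup F ⇑Q) :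
    s ∈ Omega F ⇑Q ↔ (invHom Q hQ h' s).2 = 1 := by
  rw [ker_invHom Q hQ h', MonoidHom.mem_ker]
  constructor
  · intro h
    rw [h]
    rfl
  · intro h
    exact Prod.ext (fst_invHom_of_SO hQ h2 h' s hs) h

include hk in
theorem negO_mem_SO : negO Q ∈ specialIsometryGroup F ⇑Q := by
  rw [mem_SO_iff, negO_val, Matrix.det_neg, Matrix.det_one, hk]
  simp

include hv hQ h2 hk hk3 in
/-- If `-1 ∉ Ω`, then `PSO = T`. -/
theorem pso_le_Inn (hneg : ¬ NegIn Q) : psoAut F ⇑Q ≤ Inn (POmega F ⇑Q) := by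
  have hc : Fintype.card F ≠ 2 ∨ Fintype.card ι ≠ 4 := Or.inl (card_ne_two_of_two_ne h2)
  rw [psoAut_eq', Inn_eq']
  rintro _ ⟨s, hs, rfl⟩
  by_cases h : s ∈ Omega F ⇑Q
  · exact ⟨s, h, rfl⟩
  · refine ⟨negO Q * s, ?_, ?_⟩
    · have hn := negO_mem_SO hk (Q := Q)
      have hns := (specialIsometryGroup F ⇑Q).mul_mem hn hs
      rw [SetLike.mem_coe, mem_Omega_iff_snd hQ h2 hc _ hns, map_mul, Prod.snd_mul]
      rw [mem_Omega_iff_snd hQ h2 hc _ hs] at h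
      rw [negIn_iff, mem_Omega_iff_snd hQ h2 hc _ hn] at hneg
      rw [m2_eq hneg h]
      exact m2_mul_self _
    · show Φ₁ (negO Q * s) = Φ₁ s
      rw [map_mul, Φ₁_negO (by omega), one_mul]

/-- The spinor character on `SO`. -/
noncomputable def κ : ↥(specialIsometryGroup F ⇑Q) →* Multiplicative (ZMod 2) :=
  (MonoidHom.snd _ _).comp ((invHom Q hQ h').comp (specialIsometryGroup F ⇑Q).subtype)

include h2 in
theorem κ_eq_one_iff (s : ↥(specialIsometryGroup F ⇑Q)) : κ hQ h' s = 1 ↔ s.1 ∈ Omega F ⇑Q :=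
  (mem_Omega_iff_snd hQ h2 h' s.1 s.2).symm

include hQ h2 in
/-- A nonsquare-spinor product of two reflections. -/
theorem exists_rr (hdim : 2 ≤ Fintype.card ι) {ν : F} (hν0 : ν ≠ 0) (hν : ¬ IsSquare ν) :
    ∃ u v : ι → F, Q u = 1 ∧ Q v = ν := by
  have hd : 2 ≤ Module.finrank F (ι → F) := by simpa using hdim
  obtain ⟨u, hu⟩ := exists_Q_eq Q h2 hQ hd 1
  obtain ⟨v, hv⟩ := exists_Q_eq Q h2 hQ hd ν
  exact ⟨u, v, hu, hv⟩

theorem rr_mem_SO {u v : ι → F} (hu : Q u ≠ 0) (hv : Q v ≠ 0) :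
    reflEl Q u * reflEl Q v ∈ specialIsometryGroup F ⇑Q := by
  rw [mem_SO_iff]
  show (((reflEl Q u : isometryGroup F ⇑Q) : GL ι F).val * ((reflEl Q v : isometryGroup F ⇑Q) : GL ι F).val).det = 1
  rw [Matrix.det_mul, reflEl_val, reflEl_val, Cfsg.Agent.Lib.Reflect.Basic.reflection_det Q u hu,
    Cfsg.Agent.Lib.Reflect.Basic.reflection_det Q v hv]
  simp

include hv hQ h2 hk hk3 in
/-- If `-1 ∈ Ω`, `PSO/T` has order two. -/
theorem T2_neg (D : XData Q k) (hneg : NegIn Q) :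
    ∃ φ : ↥(psoAut F ⇑Q) →* Multiplicative (ZMod 2), Function.Surjective φ ∧
      φ.ker = (Inn (POmega F ⇑Q)).subgroupOf (psoAut F ⇑Q) := by
  have hc : Fintype.card F ≠ 2 ∨ Fintype.card ι ≠ 4 := Or.inl (card_ne_two_of_two_ne h2)
  have h5 : 5 ≤ Fintype.card ι := by omega
  apply descend (Φ₁.comp (specialIsometryGroup F ⇑Q).subtype) (κ hQ hc)
  · intro s hs
    rw [MonoidHom.mem_ker, MonoidHom.comp_apply] at hs
    rw [MonoidHom.mem_ker, κ_eq_one_iff hQ h2 hc]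
    rcases Φ₁_eq_one hQ h5 hv _ hs with h | h
    · show s.1 ∈ Omega F ⇑Q
      change s.1 = 1 at h
      rw [h]
      exact (Omega F ⇑Q).one_mem
    · have : s.1 = negO Q := by
        apply Subtype.ext
        apply Units.ext
        change (s.1.1 : Matrix ι ι F) = -1 at h
        rw [h, negO_val]
      show s.1 ∈ Omega F ⇑Q
      rw [this]
      exact negIn_iff.1 hneg
  · obtain ⟨u, v, hu, hv'⟩ := exists_rr hQ h2 (by omega) D.ν.ne_zero D.hν
    have hu0 : Q u ≠ 0 := by rw [hu]; exact one_ne_zero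
    have hv0 : Q v ≠ 0 := by rw [hv']; exact D.ν.ne_zero
    apply m2_surj _ ⟨reflEl Q u * reflEl Q v, rr_mem_SO hu0 hv0⟩
    rw [Ne, κ_eq_one_iff hQ h2 hc]
    show ¬ (reflEl Q u * reflEl Q v ∈ Omega F ⇑Q)
    rw [rr_mem_Omega_iff hQ h2 hu0 hv0, hu, hv', one_mul]
    exact D.hν
  · rw [psoAut_eq', MonoidHom.range_comp, Subgroup.range_subtype]
  · rw [Inn_eq']
    ext x
    constructor
    · rintro ⟨s, hs, rfl⟩
      have hs' : s ∈ specialIsometryGroup F ⇑Q := by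
        rw [mem_SO_iff]
        have := congrArg Units.val (det_eq_one_of_mem_Omega ⇑Q hs)
        simpa using this
      refine ⟨⟨s, hs'⟩, ?_, rfl⟩
      rw [SetLike.mem_coe, MonoidHom.mem_ker, κ_eq_one_iff hQ h2 hc]
      exact hs
    · rintro ⟨s, hs, rfl⟩
      rw [SetLike.mem_coe, MonoidHom.mem_ker, κ_eq_one_iff hQ h2 hc] at hs
      exact ⟨s.1, hs, rfl⟩

include hv hQ h2 hk hk3 in
theorem T2_index_neg (D : XData Q k) (hneg : NegIn Q) :
    (Inn (POmega F ⇑Q)).relIndex (psoAut F ⇑Q) = 2 := by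
  obtain ⟨φ, hs, hk'⟩ := T2_neg hv hQ h2 hk hk3 D hneg
  rw [relIndex_of_hom φ hs hk']
  simp

include hv hQ h2 hk hk3 in
theorem T2_index_not (hneg : ¬ NegIn Q) : (Inn (POmega F ⇑Q)).relIndex (psoAut F ⇑Q) = 1 :=
  Subgroup.relIndex_eq_one.2 (pso_le_Inn hv hQ h2 hk hk3 hneg)

include hv hQ h2 hk hk3 in
theorem pso_relIndex_pgo (D : XData Q k) : (psoAut F ⇑Q).relIndex (pgoAut F ⇑Q) = 4 := by
  obtain ⟨φ, hs, hk'⟩ := T1 hv hQ h2 hk hk3 D
  rw [relIndex_of_hom φ hs hk']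
  simp [Nat.card_eq_fintype_card]

include hv hQ h2 hk hk3 in
/-- **T3**, the case `-1 ∉ Ω`. -/
theorem T3_not (D : XData Q k) (hneg : ¬ NegIn Q) :
    ∃ φ : ↥(pgoAut F ⇑Q) →* Multiplicative (ZMod 2 × ZMod 2), Function.Surjective φ ∧
      φ.ker = (Inn (POmega F ⇑Q)).subgroupOf (pgoAut F ⇑Q) := by
  have h : Inn (POmega F ⇑Q) = psoAut F ⇑Q :=
    le_antisymm (Inn_le_psoAut _) (pso_le_Inn hv hQ h2 hk hk3 hneg)
  rw [h]
  exact T1 hv hQ h2 hk hk3 D

/-- The action on `PΩ` with values in `PGO`. -/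
noncomputable def pg : ↥(GO ⇑Q) →* ↥(pgoAut F ⇑Q) :=
  (Phi ⇑Q).codRestrict _ (fun g => by
    rw [pgoAut_eq]
    exact ⟨g, trivial, rfl⟩)

@[simp] theorem pg_val (g : ↥(GO ⇑Q)) : ((pg g : ↥(pgoAut F ⇑Q)) : MulAut (POmega F ⇑Q)) = Phi ⇑Q g := rfl

include hv hQ h2 hk hk3 in
theorem rr_not_Inn (D : XData Q k) (hneg : NegIn Q) {w : ι → F} (hw : Q w ≠ 0) :
    Φ₁ (reflEl Q ((D.X : Matrix ι ι F) *ᵥ w) * reflEl Q w) ∉ Inn (POmega F ⇑Q) := by
  intro h
  have h5 : 5 ≤ Fintype.card ι := by omega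
  have h1 := mem_Omega_of_Inn hQ h5 hv hneg _ h
  have hXw : Q ((D.X : Matrix ι ι F) *ᵥ w) ≠ 0 := by
    rw [D.hXQ]
    exact mul_ne_zero D.ν.ne_zero hw
  rw [rr_mem_Omega_iff hQ h2 hXw hw, D.hXQ] at h1
  apply D.hν
  obtain ⟨c, hc⟩ := h1
  refine ⟨c / Q w, ?_⟩
  field_simp
  linear_combination hc

theorem comm_eq (D : XData Q k) {w : ι → F} (hw : Q w ≠ 0) :
    gX D * incO (reflEl Q w) * (gX D)⁻¹ * (incO (reflEl Q w))⁻¹ =
      incO (reflEl Q ((D.X : Matrix ι ι F) *ᵥ w) * reflEl Q w) := by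
  have h1 : (incO (reflEl Q w))⁻¹ = incO (reflEl Q w) := by
    rw [inv_eq_iff_mul_eq_one, ← map_mul, reflEl_mul_self hw, map_one]
  rw [gX_mul_r D hw, h1, map_mul]
  group

include hv hQ h2 hk hk3 in
/-- **T3**, the case `-1 ∈ Ω`. -/
theorem T3_neg (D : XData Q k) (hneg : NegIn Q) :
    ∃ φ : ↥(pgoAut F ⇑Q) →* DihedralGroup 4, Function.Surjective φ ∧
      φ.ker = (Inn (POmega F ⇑Q)).subgroupOf (pgoAut F ⇑Q) := by
  have hcard : (Inn (POmega F ⇑Q)).relIndex (pgoAut F ⇑Q) = 8 := by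
    rw [← Subgroup.relIndex_mul_relIndex _ _ _ (Inn_le_psoAut _) (psoAut_le_pgoAut _),
      T2_index_neg hv hQ h2 hk hk3 D hneg, pso_relIndex_pgo hv hQ h2 hk hk3 D]
  obtain ⟨w, hw⟩ := id hv
  apply hom_D8 hcard (pg (incO (reflEl Q w))) (pg (gX D))
  · rw [← map_mul, ← map_mul, reflEl_mul_self hw, map_one, map_one]
    exact Subgroup.one_mem _
  · intro h
    apply rr_not_Inn hv hQ h2 hk hk3 D hneg hw
    have e : Φ₁ (reflEl Q ((D.X : Matrix ι ι F) *ᵥ w) * reflEl Q w) =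
        ((pg (gX D) * pg (incO (reflEl Q w)) * (pg (gX D))⁻¹ * (pg (incO (reflEl Q w)))⁻¹ : ↥(pgoAut F ⇑Q)) :
          MulAut (POmega F ⇑Q)) := by
      show Phi ⇑Q (incO (reflEl Q ((D.X : Matrix ι ι F) *ᵥ w) * reflEl Q w)) = _
      rw [← comm_eq D hw]
      simp only [map_mul, map_inv]
      rfl
    rw [e]
    exact h

/-! ### The inner-diagonal group -/

/-- The image of the similarities with `det = μ^k`. -/
noncomputable def DG : Subgroup (MulAut (POmega F ⇑Q)) := (ε Q hv hQ h2 hk).ker.map (Phi ⇑Q)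

theorem mem_kerε_iff (g : ↥(GO ⇑Q)) :
    g ∈ (ε Q hv hQ h2 hk).ker ↔ (g.1 : Matrix ι ι F).det = (mult Q hv g : F) ^ k := by
  rw [MonoidHom.mem_ker, ε_eq_one_iff]

theorem pso_le_DG : psoAut F ⇑Q ≤ DG hv hQ h2 hk := by
  rw [← map_ker_χ hv hQ h2 hk]
  apply Subgroup.map_mono
  intro g hg
  rw [MonoidHom.mem_ker, χ_eq_one_iff] at hg
  exact hg.2

theorem gX_mem_kerε (D : XData Q k) (he : Even k) : gX D ∈ (ε Q hv hQ h2 hk).ker := by
  rw [mem_kerε_iff, mult_gX]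
  show (D.X : Matrix ι ι F).det = _
  rw [D.hdet, he.neg_pow]

theorem gXr_mem_kerε (D : XData Q k) (he : Odd k) {w : ι → F} (hw : Q w ≠ 0) :
    gX D * incO (reflEl Q w) ∈ (ε Q hv hQ h2 hk).ker := by
  rw [mem_kerε_iff, map_mul, mult_gX, mult_incO, mul_one]
  show ((D.X : Matrix ι ι F) * ((reflEl Q w : isometryGroup F ⇑Q) : GL ι F).val).det = _
  rw [Matrix.det_mul, D.hdet, he.neg_pow, reflEl_val, Cfsg.Agent.Lib.Reflect.Basic.reflection_det Q w hw]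
  simp

theorem exists_d (D : XData Q k) : ∃ d ∈ (ε Q hv hQ h2 hk).ker, mult Q hv d = D.ν := by
  rcases Nat.even_or_odd k with he | he
  · exact ⟨gX D, gX_mem_kerε hv hQ h2 hk D he, mult_gX hv D⟩
  · obtain ⟨w, hw⟩ := id hv
    refine ⟨_, gXr_mem_kerε hv hQ h2 hk D he hw, ?_⟩
    rw [map_mul, mult_gX, mult_incO, mul_one]

include hk3 in
/-- `Inndiag/PSO` has order two. -/
theorem T4_pso (D : XData Q k) :
    ∃ φ : ↥(DG hv hQ h2 hk) →* Multiplicative (ZMod 2), Function.Surjective φ ∧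
      φ.ker = (psoAut F ⇑Q).subgroupOf (DG hv hQ h2 hk) := by
  apply descend ((Phi ⇑Q).comp (ε Q hv hQ h2 hk).ker.subtype) ((sqμ Q hv).comp (ε Q hv hQ h2 hk).ker.subtype)
  · intro g hg
    rw [MonoidHom.mem_ker, MonoidHom.comp_apply] at hg ⊢
    exact (sqμ_eq_one_iff Q hv _).2 (facts_of_Phi_eq_one hv hQ hk hk3 _ hg).1
  · obtain ⟨d, hd, hμ⟩ := exists_d hv hQ h2 hk D
    apply m2_surj _ ⟨d, hd⟩
    rw [MonoidHom.comp_apply]
    show ¬ (sqμ Q hv d = 1)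
    rw [sqμ_eq_one_iff, hμ]
    exact D.hν
  · rw [DG, MonoidHom.range_comp, Subgroup.range_subtype]
  · rw [← map_ker_χ hv hQ h2 hk]
    ext x
    constructor
    · rintro ⟨g, hg, rfl⟩
      rw [SetLike.mem_coe, MonoidHom.mem_ker, χ_eq_one_iff] at hg
      refine ⟨⟨g, hg.2⟩, ?_, rfl⟩
      rw [SetLike.mem_coe, MonoidHom.mem_ker]
      exact hg.1
    · rintro ⟨g, hg, rfl⟩
      rw [SetLike.mem_coe, MonoidHom.mem_ker] at hg
      refine ⟨g.1, ?_, rfl⟩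
      rw [SetLike.mem_coe, MonoidHom.mem_ker, χ_eq_one_iff]
      exact ⟨hg, g.2⟩

include hk3 in
/-- **T4**, the case `-1 ∉ Ω`. -/
theorem T4_not (D : XData Q k) (hneg : ¬ NegIn Q) :
    ∃ φ : ↥(DG hv hQ h2 hk) →* Multiplicative (ZMod 2), Function.Surjective φ ∧
      φ.ker = (Inn (POmega F ⇑Q)).subgroupOf (DG hv hQ h2 hk) := by
  have h : Inn (POmega F ⇑Q) = psoAut F ⇑Q :=
    le_antisymm (Inn_le_psoAut _) (pso_le_Inn hv hQ h2 hk hk3 hneg)
  rw [h]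
  exact T4_pso hv hQ h2 hk hk3 D

include hk3 in
theorem T4_card (D : XData Q k) (hneg : NegIn Q) :
    Nat.card (↥(DG hv hQ h2 hk) ⧸ (Inn (POmega F ⇑Q)).subgroupOf (DG hv hQ h2 hk)) = 4 := by
  change (Inn (POmega F ⇑Q)).relIndex (DG hv hQ h2 hk) = 4
  obtain ⟨φ, hs, hk'⟩ := T4_pso hv hQ h2 hk hk3 D
  rw [← Subgroup.relIndex_mul_relIndex _ _ _ (Inn_le_psoAut _) (pso_le_DG hv hQ h2 hk),
    T2_index_neg hv hQ h2 hk hk3 D hneg, relIndex_of_hom φ hs hk']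
  simp

/-- The elements of the inner-diagonal group. -/
noncomputable def dgEl (g : ↥(GO ⇑Q)) (hg : g ∈ (ε Q hv hQ h2 hk).ker) : ↥(DG hv hQ h2 hk) :=
  ⟨Phi ⇑Q g, g, hg, rfl⟩

include hk3 in
/-- **T4**, the case `-1 ∈ Ω` and `k` odd. -/
theorem T4_odd (D : XData Q k) (hneg : NegIn Q) (ho : Odd k) :
    ∃ φ : ↥(DG hv hQ h2 hk) →* Multiplicative (ZMod 4), Function.Surjective φ ∧
      φ.ker = (Inn (POmega F ⇑Q)).subgroupOf (DG hv hQ h2 hk) := by
  obtain ⟨w, hw⟩ := id hv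
  have hd := gXr_mem_kerε hv hQ h2 hk D ho hw
  apply hom_C4 (T4_card hv hQ h2 hk hk3 D hneg) (dgEl hv hQ h2 hk _ hd)
  have e : ((dgEl hv hQ h2 hk _ hd * dgEl hv hQ h2 hk _ hd : ↥(DG hv hQ h2 hk)) : MulAut (POmega F ⇑Q)) =
      Φ₁ (reflEl Q ((D.X : Matrix ι ι F) *ᵥ w) * reflEl Q w) := by
    show Phi ⇑Q (gX D * incO (reflEl Q w)) * Phi ⇑Q (gX D * incO (reflEl Q w)) =
      Phi ⇑Q (incO (reflEl Q ((D.X : Matrix ι ι F) *ᵥ w) * reflEl Q w))
    rw [← map_mul]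
    have e1 : gX D * incO (reflEl Q w) * (gX D * incO (reflEl Q w)) =
        incO (reflEl Q ((D.X : Matrix ι ι F) *ᵥ w)) * (gX D * gX D) * incO (reflEl Q w) := by
      calc gX D * incO (reflEl Q w) * (gX D * incO (reflEl Q w))
          = (gX D * incO (reflEl Q w)) * gX D * incO (reflEl Q w) := by group
        _ = incO (reflEl Q ((D.X : Matrix ι ι F) *ᵥ w)) * gX D * gX D * incO (reflEl Q w) := by
            rw [gX_mul_r D hw]
        _ = _ := by group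
    rw [e1, map_mul, map_mul, Phi_eq_one_of_scalar _ _ (gX_sq_scalar D), mul_one, map_mul, map_mul]
  rw [e]
  exact rr_not_Inn hv hQ h2 hk hk3 D hneg hw

include hv hQ hk hk3 in
theorem Phi_gX_not_pso (D : XData Q k) : Phi ⇑Q (gX D) ∉ psoAut F ⇑Q := by
  rw [psoAut_eq]
  rintro ⟨s, hs, hs'⟩
  have h1 : Phi ⇑Q (gX D * s⁻¹) = 1 := by
    rw [map_mul, map_inv]
    rw [show Phi ⇑Q s = Phi ⇑Q (gX D) from hs', mul_inv_cancel]
  have h3 := (facts_of_Phi_eq_one hv hQ hk hk3 _ h1).1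
  have hm : mult Q hv s = 1 := by
    apply mult_eq Q hv
    intro v
    have := (mem_isometryGroup_iff _ _).1 hs.1 v
    simpa using this
  rw [map_mul, map_inv, hm, mult_gX, inv_one, mul_one] at h3
  exact D.hν h3

include hk3 in
/-- **T4**, the case `-1 ∈ Ω` and `k` even. -/
theorem T4_even (D : XData Q k) (hneg : NegIn Q) (he : Even k) :
    ∃ φ : ↥(DG hv hQ h2 hk) →* Multiplicative (ZMod 2 × ZMod 2), Function.Surjective φ ∧
      φ.ker = (Inn (POmega F ⇑Q)).subgroupOf (DG hv hQ h2 hk) := by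
  have hc : Fintype.card F ≠ 2 ∨ Fintype.card ι ≠ 4 := Or.inl (card_ne_two_of_two_ne h2)
  have h5 : 5 ≤ Fintype.card ι := by omega
  have hd := gX_mem_kerε hv hQ h2 hk D he
  obtain ⟨u, v, hu, hv'⟩ := exists_rr hQ h2 (Q := Q) (by omega) D.ν.ne_zero D.hν
  have hu0 : Q u ≠ 0 := by rw [hu]; exact one_ne_zero
  have hv0 : Q v ≠ 0 := by rw [hv']; exact D.ν.ne_zero
  have hSO := rr_mem_SO hu0 hv0
  have hy : incO (reflEl Q u * reflEl Q v) ∈ (ε Q hv hQ h2 hk).ker := by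
    rw [mem_kerε_iff, mult_incO]
    have := (mem_SO_iff _).1 hSO
    rw [Units.val_one, one_pow]
    exact this
  apply hom_klein (T4_card hv hQ h2 hk hk3 D hneg) (dgEl hv hQ h2 hk _ hd) (dgEl hv hQ h2 hk _ hy)
  · intro h
    exact Phi_gX_not_pso hv hQ hk hk3 D (Inn_le_psoAut _ h)
  · have e : ((dgEl hv hQ h2 hk _ hd * dgEl hv hQ h2 hk _ hd : ↥(DG hv hQ h2 hk)) : MulAut (POmega F ⇑Q)) = 1 := by
      show Phi ⇑Q (gX D) * Phi ⇑Q (gX D) = 1
      rw [← map_mul, Phi_eq_one_of_scalar _ _ (gX_sq_scalar D)]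
    rw [e]
    exact Subgroup.one_mem _
  · intro h
    have h1 := mem_Omega_of_Inn hQ h5 hv hneg _ h
    rw [rr_mem_Omega_iff hQ h2 hu0 hv0, hu, hv', one_mul] at h1
    exact D.hν h1
  · have e : ((dgEl hv hQ h2 hk _ hy * dgEl hv hQ h2 hk _ hy : ↥(DG hv hQ h2 hk)) : MulAut (POmega F ⇑Q)) =
        Φ₁ ((reflEl Q u * reflEl Q v) * (reflEl Q u * reflEl Q v)) := by
      show Φ₁ (reflEl Q u * reflEl Q v) * Φ₁ (reflEl Q u * reflEl Q v) = _
      rw [← map_mul]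
    rw [e, Inn_eq']
    refine ⟨_, ?_, rfl⟩
    rw [SetLike.mem_coe, mem_Omega_iff_snd hQ h2 hc _ ((specialIsometryGroup F ⇑Q).mul_mem hSO hSO), map_mul]
    exact m2_mul_self _
  · intro h3'
    have h3 := Inn_le_psoAut _ h3'
    have h4 : Phi ⇑Q (gX D) = (Φ₁ (reflEl Q u * reflEl Q v)) *
        ((dgEl hv hQ h2 hk _ hy)⁻¹ * dgEl hv hQ h2 hk _ hd : ↥(DG hv hQ h2 hk)).1 := by
      show _ = (Φ₁ (reflEl Q u * reflEl Q v)) *
        ((Φ₁ (reflEl Q u * reflEl Q v))⁻¹ * Phi ⇑Q (gX D))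
      group
    apply Phi_gX_not_pso hv hQ hk hk3 D
    rw [h4]
    refine (psoAut F ⇑Q).mul_mem ?_ h3
    rw [psoAut_eq']
    exact ⟨_, hSO, rfl⟩

end main

end Cfsg.Agent.Lib.OutO.Struct
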