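/-
The similarities `X` for the standard plus and minus type forms and the description of the inner-diagonal groups.
-/
import Mathlib
import Cfsg.Agent.Lib.OutO.Struct
import Cfsg.Agent.Lib.OutO.Classes
import Cfsg.Agent.Lib.Orth.Forms

set_option autoImplicit false

namespace Cfsg.Agent.Lib.OutO.Forms

open Matrix Cfsg QuadraticMap Module
open Cfsg.Agent.Lib.Orth.Bridge Cfsg.Agent.Lib.Orth.Closure Cfsg.Agent.Lib.Orth.Spin
open Cfsg.Agent.Lib.Orth.Forms Cfsg.Agent.Lib.Orth.Gram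
open Cfsg.Agent.Lib.OutO.Induced Cfsg.Agent.Lib.OutO.Chars Cfsg.Agent.Lib.OutO.GroupLemmas
open Cfsg.Agent.Lib.OutO.Main Cfsg.Agent.Lib.OutO.Struct Cfsg.Agent.Lib.OutO.Classes
open Cfsg.Agent.Lib.QuadFn.PlusForm

universe u

section X

variable {F : Type u} [Field F]

/-- The hyperbolic similarity. -/
abbrev hypX (m : ℕ) (ν : F) : Matrix (Fin m ⊕ Fin m) (Fin m ⊕ Fin m) F :=
  fromBlocks (0 : Matrix (Fin m) (Fin m) F) (1 : Matrix (Fin m) (Fin m) F) (ν • (1 : Matrix (Fin m) (Fin m) F)) (0 : Matrix (Fin m) (Fin m) F)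

theorem hypX_mulVec (m : ℕ) (ν : F) (v : Fin m ⊕ Fin m → F) :
    hypX m ν *ᵥ v = Sum.elim (fun i => v (.inr i)) (fun i => ν * v (.inl i)) := by
  rw [hypX, ← Sum.elim_comp_inl_inr v, fromBlocks_mulVec]
  simp only [Matrix.zero_mulVec, Matrix.one_mulVec, zero_add, add_zero, Matrix.smul_mulVec]
  congr 1

theorem hypX_Q (m : ℕ) (ν : F) (v : Fin m ⊕ Fin m → F) :
    quadFormPlus m F (hypX m ν *ᵥ v) = ν * quadFormPlus m F v := by
  rw [hypX_mulVec]
  simp only [quadFormPlus, Sum.elim_inl, Sum.elim_inr, Finset.mul_sum]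
  exact Finset.sum_congr rfl fun i _ => by ring

theorem hypX_sq (m : ℕ) (ν : F) : hypX m ν * hypX m ν = ν • (1 : Matrix (Fin m ⊕ Fin m) (Fin m ⊕ Fin m) F) := by
  rw [hypX, fromBlocks_multiply]
  simp only [mul_zero, add_zero, zero_mul, zero_add, mul_one, one_mul]
  rw [← fromBlocks_one, fromBlocks_smul]
  simp

theorem hypX_det (m : ℕ) (ν : F) : (hypX m ν).det = (-ν) ^ m := by
  have h : hypX m ν = fromBlocks (1 : Matrix (Fin m) (Fin m) F) 0 0 (ν • 1) * hypMat (Fin m) F := by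
    rw [hypMat, fromBlocks_multiply]
    simp
  rw [h, Matrix.det_mul, det_hyp, Matrix.det_fromBlocks_zero₂₁]
  simp only [det_one, one_mul, Matrix.det_smul, Fintype.card_fin, mul_one]
  rw [neg_pow ν m, mul_comm]

/-- The binary similarity. -/
abbrev binX (a b c₀ c₁ : F) : Matrix (Fin 2) (Fin 2) F :=
  !![c₀, a * c₀ + b * c₁; c₁, -c₀]

end X

section data

variable {F : Type u} [Field F] [Fintype F]

/-- Constructor from a matrix. -/
noncomputable def XData.ofMat {ι : Type} [Fintype ι] [DecidableEq ι] {Q : QuadraticForm F (ι → F)} {k : ℕ}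
    (X : Matrix ι ι F) (ν : Fˣ) (hν : ¬ IsSquare (ν : F))
    (hXQ : ∀ v, Q (X *ᵥ v) = (ν : F) * Q v) (hX2 : X * X = (ν : F) • 1) (hdet : X.det = (-(ν : F)) ^ k) :
    XData Q k where
  X := Matrix.GeneralLinearGroup.mkOfDetNeZero X (by
    rw [hdet]
    exact pow_ne_zero _ (neg_ne_zero.2 ν.ne_zero))
  ν := ν
  hν := hν
  hXQ := hXQ
  hX2 := hX2
  hdet := hdet

theorem exists_nonsq (h2 : (2 : F) ≠ 0) : ∃ ν : Fˣ, ¬ IsSquare (ν : F) := by
  have hchar : ringChar F ≠ 2 := by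
    intro h
    apply h2
    have := ringChar.Nat.cast_ringChar (R := F)
    rw [h] at this
    exact_mod_cast this
  obtain ⟨x, hx⟩ := FiniteField.exists_nonsquare hchar
  have hx0 : x ≠ 0 := by
    rintro rfl
    exact hx IsSquare.zero
  exact ⟨Units.mk0 x hx0, hx⟩

/-- `X` for the plus form. -/
theorem plus_data (h2 : (2 : F) ≠ 0) (m : ℕ) : Nonempty (XData (plusForm m F) m) := by
  obtain ⟨ν, hν⟩ := exists_nonsq h2
  exact ⟨XData.ofMat (hypX m (ν : F)) ν hν (hypX_Q m (ν : F)) (hypX_sq m (ν : F)) (hypX_det m (ν : F))⟩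

/-- `X` for the minus form. -/
theorem minus_data (h2 : (2 : F) ≠ 0) (m : ℕ) {a b : F}
    (hab : ∀ z₁ z₂ : F, z₁ ^ 2 + a * z₁ * z₂ + b * z₂ ^ 2 = 0 → z₁ = 0 ∧ z₂ = 0) :
    Nonempty (XData (minusForm m F a b) (m + 1)) := by
  obtain ⟨ν, hν⟩ := exists_nonsq h2
  obtain ⟨v, hv⟩ := exists_Q_eq (minusForm 0 F a b) h2 (minusForm_nondeg 0 hab) (by simp) (ν : F)
  obtain ⟨c₀, c₁, hc⟩ : ∃ c₀ c₁ : F, c₀ ^ 2 + a * c₀ * c₁ + b * c₁ ^ 2 = ν := by
    refine ⟨v (.inr 0), v (.inr 1), ?_⟩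
    rw [← hv]
    simp [quadFormMinus]
  let X : Matrix ((Fin m ⊕ Fin m) ⊕ Fin 2) ((Fin m ⊕ Fin m) ⊕ Fin 2) F :=
    fromBlocks (hypX m (ν : F)) 0 0 (binX a b c₀ c₁)
  have hmv : ∀ v : (Fin m ⊕ Fin m) ⊕ Fin 2 → F, X *ᵥ v = Sum.elim (hypX m (ν : F) *ᵥ (v ∘ Sum.inl)) (binX a b c₀ c₁ *ᵥ (v ∘ Sum.inr)) := by
    intro v
    conv_lhs => rw [← Sum.elim_comp_inl_inr v]
    show fromBlocks _ _ _ _ *ᵥ _ = _
    rw [fromBlocks_mulVec]
    simp
  have hQ1 : ∀ w : (Fin m ⊕ Fin m) ⊕ Fin 2 → F, quadFormMinus m F a b w =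
      quadFormPlus m F (w ∘ Sum.inl) + (w (Sum.inr 0) ^ 2 + a * w (Sum.inr 0) * w (Sum.inr 1) + b * w (Sum.inr 1) ^ 2) := by
    intro w; rfl
  refine ⟨XData.ofMat X ν hν ?_ ?_ ?_⟩
  · intro v
    show quadFormMinus m F a b _ = _ * quadFormMinus m F a b _
    rw [hQ1, hQ1, hmv]
    have h1 : (Sum.elim (hypX m (ν : F) *ᵥ (v ∘ Sum.inl)) (binX a b c₀ c₁ *ᵥ (v ∘ Sum.inr))) ∘ Sum.inl = hypX m (ν : F) *ᵥ (v ∘ Sum.inl) := by
      funext i; rfl
    rw [h1, hypX_Q]
    simp only [Sum.elim_inr, Matrix.mulVec, dotProduct, Fin.sum_univ_two, Matrix.cons_val_zero, Matrix.cons_val_one,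
      Matrix.of_apply, Matrix.cons_val', Function.comp_apply]
    rw [← hc]
    ring
  · show fromBlocks _ _ _ _ * fromBlocks _ _ _ _ = _
    rw [fromBlocks_multiply]
    simp only [Matrix.mul_zero, add_zero, Matrix.zero_mul, zero_add]
    rw [hypX_sq]
    have : binX a b c₀ c₁ * binX a b c₀ c₁ = (ν : F) • (1 : Matrix (Fin 2) (Fin 2) F) := by
      ext i j
      fin_cases i <;> fin_cases j <;> simp [Matrix.mul_apply, Fin.sum_univ_two, binX, ← hc] <;> ring
    have h1 : (1 : Matrix ((Fin m ⊕ Fin m) ⊕ Fin 2) ((Fin m ⊕ Fin m) ⊕ Fin 2) F) = fromBlocks 1 0 0 1 :=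
      fromBlocks_one.symm
    rw [this, h1, fromBlocks_smul]
    simp
  · show (fromBlocks _ _ _ _).det = _
    rw [Matrix.det_fromBlocks_zero₂₁, hypX_det, Matrix.det_fin_two_of, pow_succ, ← hc]
    ring

end data

section inndiag_plus

variable {F : Type u} [Field F] [Fintype F]

theorem card_plus (m : ℕ) : Fintype.card (Fin m ⊕ Fin m) = 2 * m := by
  simp [two_mul]

/-- The inner-diagonal group of `PΩ⁺`. -/
theorem inndiag_plus_eq (h2 : (2 : F) ≠ 0) (m : ℕ) (hv : ∃ v, (plusForm m F) v ≠ 0) :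
    inndiagPOmegaPlus m F = DG hv (plusForm_nondeg m) h2 (card_plus m) := by
  apply autSubgroupOf_eq
  intro β
  constructor
  · rintro ⟨g, hg, hp, hi⟩
    exact ⟨⟨g, hg⟩, (mem_kerε_iff hv (plusForm_nondeg m) h2 (card_plus m) ⟨g, hg⟩).2
      ((preserves_iff (Q := plusForm m F) (plusForm_nondeg m) h2 (card_plus m) (stdM_ts F m) (stdM_finrank F m) g
      (mult (plusForm m F) hv ⟨g, hg⟩) (mult_spec (plusForm m F) hv ⟨g, hg⟩)).1 hp),
      eq_Phi_of_induced _ ⟨g, hg⟩ hi⟩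
  · rintro ⟨g, hg, rfl⟩
    exact ⟨g.1, g.2, (preserves_iff (Q := plusForm m F) (plusForm_nondeg m) h2 (card_plus m) (stdM_ts F m) (stdM_finrank F m) g.1
      (mult (plusForm m F) hv g) (mult_spec (plusForm m F) hv g)).2
        ((mem_kerε_iff hv (plusForm_nondeg m) h2 (card_plus m) g).1 hg), isInduced_Phi _ g⟩

end inndiag_plus

section minus

variable {F : Type u} [Field F] [Fintype F]

/-- A totally singular subspace of dimension `m + 1` when the binary form has a root. -/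
theorem exists_ts_minus {K : Type*} [Field K] (a' b' ρ : K) (hρ : ρ ^ 2 + a' * ρ + b' = 0) (m : ℕ) :
    ∃ U : Submodule K ((Fin m ⊕ Fin m) ⊕ Fin 2 → K),
      Cfsg.Agent.Lib.QuadFn.MaxSingular.TS (quadFormMinus m K a' b') U ∧ finrank K U = m + 1 := by
  let c : Fin 2 → K := ![ρ, 1]
  let L : (Fin m ⊕ Fin 1 → K) →ₗ[K] ((Fin m ⊕ Fin m) ⊕ Fin 2 → K) :=
    { toFun := fun x => Sum.elim (Sum.elim (fun i => x (.inl i)) (fun _ => 0)) (fun t => c t * x (.inr 0))
      map_add' := by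
        intro x y
        funext j
        rcases j with (i | i) | t <;> simp [mul_add]
      map_smul' := by
        intro r x
        funext j
        rcases j with (i | i) | t <;> simp
        ring }
  have hL : ∀ x j, L x j = (Sum.elim (Sum.elim (fun i => x (.inl i)) (fun _ => 0)) (fun t => c t * x (.inr 0)) :
      (Fin m ⊕ Fin m) ⊕ Fin 2 → K) j := fun _ _ => rfl
  have hinj : Function.Injective L := by
    rw [← LinearMap.ker_eq_bot, LinearMap.ker_eq_bot']
    intro x hx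
    funext j
    rcases j with i | i
    · have := congrFun hx (.inl (.inl i))
      simpa [hL] using this
    · have := congrFun hx (.inr 1)
      rw [hL] at this
      have hi : i = 0 := Subsingleton.elim _ _
      subst hi
      simpa [c] using this
  refine ⟨LinearMap.range L, ?_, ?_⟩
  · rintro _ ⟨x, rfl⟩
    simp only [quadFormMinus, hL, Sum.elim_inl, Sum.elim_inr, mul_zero, Finset.sum_const_zero, zero_add]
    simp only [c, Matrix.cons_val_zero, Matrix.cons_val_one]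
    linear_combination (x (.inr 0)) ^ 2 * hρ
  · rw [LinearMap.finrank_range_of_inj hinj]
    simp

/-- Every quadratic extension contains a root of the polynomial. -/
theorem exists_root (h2 : (2 : F) ≠ 0) {a b : F}
    (hab : ∀ z₁ z₂ : F, z₁ ^ 2 + a * z₁ * z₂ + b * z₂ ^ 2 = 0 → z₁ = 0 ∧ z₂ = 0)
    {K : Type*} [Field K] [Algebra F K] (hK : finrank F K = 2) :
    ∃ ρ : K, ρ ^ 2 + algebraMap F K a * ρ + algebraMap F K b = 0 := by
  have hfd : FiniteDimensional F K := Module.finite_of_finrank_pos (by omega)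
  have hfin : Finite K := Module.finite_of_finite F
  let : Fintype K := Fintype.ofFinite K
  have hcard : Fintype.card K = Fintype.card F ^ 2 := by
    rw [Module.card_eq_pow_finrank (K := F), hK]
  have hinj := (algebraMap F K).injective
  have h2K : (2 : K) ≠ 0 := by
    intro h
    apply h2
    apply hinj
    rw [map_ofNat, h, map_zero]
  have hchar : ringChar K ≠ 2 := by
    intro h
    apply h2K
    have := ringChar.Nat.cast_ringChar (R := K)
    rw [h] at this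
    exact_mod_cast this
  have hcharF : ringChar F ≠ 2 := by
    intro h
    apply h2
    have := ringChar.Nat.cast_ringChar (R := F)
    rw [h] at this
    exact_mod_cast this
  obtain ⟨t, ht⟩ : ∃ t, Fintype.card F = 2 * t + 1 :=
    ⟨Fintype.card F / 2, by have := FiniteField.odd_card_of_char_ne_two hcharF; omega⟩
  have hsq : ∀ x : F, x ≠ 0 → IsSquare (algebraMap F K x) := by
    intro x hx
    rw [FiniteField.isSquare_iff hchar (by simpa using hx), hcard, ht]
    have e : (2 * t + 1) ^ 2 / 2 = 2 * t * (t + 1) := by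
      have : (2 * t + 1) ^ 2 = 2 * (2 * t * (t + 1)) + 1 := by ring
      omega
    rw [e, ← map_pow]
    have h1 : x ^ (2 * t) = 1 := by
      have := FiniteField.pow_card_sub_one_eq_one x hx
      rwa [ht, Nat.add_sub_cancel] at this
    rw [pow_mul, h1, one_pow, map_one]
  have hd : a ^ 2 - 4 * b ≠ 0 := by
    intro h
    apply Cfsg.Agent.Lib.Orth.Forms.disc_ne_zero_of_anisotropic hab
    linear_combination -h
  obtain ⟨s, hs⟩ := hsq _ hd
  refine ⟨(s - algebraMap F K a) / 2, ?_⟩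
  have hs' : s * s = algebraMap F K a ^ 2 - 4 * algebraMap F K b := by
    rw [← hs, map_sub, map_pow, map_mul, map_ofNat]
  field_simp
  linear_combination hs'

/-- The form is nondegenerate over an extension. -/
theorem nondeg_ext {a b : F}
    (hab : ∀ z₁ z₂ : F, z₁ ^ 2 + a * z₁ * z₂ + b * z₂ ^ 2 = 0 → z₁ = 0 ∧ z₂ = 0) (m : ℕ)
    {K : Type*} [Field K] [Algebra F K] :
    (polarBilin (minusForm m K (algebraMap F K a) (algebraMap F K b))).Nondegenerate := by
  apply nondeg_of_det _ (minusMat m _ _) (polar_quadFormMinus m _ _)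
  rw [det_minus]
  refine mul_ne_zero (pow_ne_zero _ (by simp)) ?_
  have h := disc_ne_zero_of_anisotropic hab
  intro h0
  apply h
  apply (algebraMap F K).injective
  rw [map_sub, map_mul, map_pow, map_ofNat, map_zero, h0]

/-- The Gram relation. -/
theorem gram_of_sim {ι : Type} [Fintype ι] [DecidableEq ι] {Q : (ι → F) → F} {G : Matrix ι ι F}
    (hG : ∀ u v, polar Q u v = u ⬝ᵥ (G *ᵥ v)) {g : Matrix ι ι F} {c : F}
    (hc : ∀ v, Q (g *ᵥ v) = c * Q v) : gᵀ * G * g = c • G := by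
  have key : ∀ (M : Matrix ι ι F) (i j : ι), M i j = (Pi.single i 1 : ι → F) ⬝ᵥ (M *ᵥ (Pi.single j 1 : ι → F)) := by
    intro M i j
    simp
  ext i j
  have h3 : polar Q (g *ᵥ (Pi.single i 1)) (g *ᵥ (Pi.single j 1)) = c * polar Q (Pi.single i 1) (Pi.single j 1) := by
    simp only [polar]
    rw [← Matrix.mulVec_add, hc, hc, hc]
    ring
  rw [hG, hG] at h3
  rw [Matrix.smul_apply, smul_eq_mul, key (gᵀ * G * g) i j, ← Matrix.mulVec_mulVec, ← Matrix.mulVec_mulVec,
    Matrix.dotProduct_mulVec, Matrix.vecMul_transpose, h3, key G i j]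

/-- Base change of a similarity. -/
theorem sim_ext (h2 : (2 : F) ≠ 0) {m : ℕ} {a b : F} {K : Type*} [Field K] [Algebra F K]
    {g : Matrix ((Fin m ⊕ Fin m) ⊕ Fin 2) ((Fin m ⊕ Fin m) ⊕ Fin 2) F} {c : F}
    (hc : ∀ v, quadFormMinus m F a b (g *ᵥ v) = c * quadFormMinus m F a b v)
    (v : (Fin m ⊕ Fin m) ⊕ Fin 2 → K) :
    quadFormMinus m K (algebraMap F K a) (algebraMap F K b) (g.map (algebraMap F K) *ᵥ v) =
      algebraMap F K c * quadFormMinus m K (algebraMap F K a) (algebraMap F K b) v := by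
  have h2K : (2 : K) ≠ 0 := by
    intro h
    apply h2
    apply (algebraMap F K).injective
    rw [map_ofNat, h, map_zero]
  have hG := gram_of_sim (polar_quadFormMinus m a b) hc
  have hmat : (minusMat m a b).map (algebraMap F K) = minusMat m (algebraMap F K a) (algebraMap F K b) := by
    ext i j
    rcases i with (i | i) | i <;> rcases j with (j | j) | j <;>
      simp [Matrix.one_apply, apply_ite (algebraMap F K)]
    all_goals
      fin_cases i <;> fin_cases j <;> simp [map_ofNat]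
  have hGK : (g.map (algebraMap F K))ᵀ * minusMat m (algebraMap F K a) (algebraMap F K b) * g.map (algebraMap F K) =
      (algebraMap F K c) • minusMat m (algebraMap F K a) (algebraMap F K b) := by
    have h3 := congrArg (fun M => M.map (algebraMap F K)) hG
    simp only [Matrix.map_mul, Matrix.transpose_map] at h3
    rw [hmat] at h3
    rw [h3, ← hmat]
    ext i j
    simp
  have hpol : ∀ x : (Fin m ⊕ Fin m) ⊕ Fin 2 → K, 2 * quadFormMinus m K (algebraMap F K a) (algebraMap F K b) x =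
      x ⬝ᵥ (minusMat m (algebraMap F K a) (algebraMap F K b) *ᵥ x) := by
    intro x
    rw [← polar_quadFormMinus, ← coe_minusForm, QuadraticMap.polar_self]
    simp
  apply mul_left_cancel₀ h2K
  rw [hpol, mul_left_comm, hpol]
  have h4 := congrArg (fun M => v ⬝ᵥ (M *ᵥ v)) hGK
  rw [← Matrix.mulVec_mulVec, ← Matrix.mulVec_mulVec, Matrix.dotProduct_mulVec, Matrix.vecMul_transpose,
    Matrix.smul_mulVec, dotProduct_smul, smul_eq_mul] at h4
  exact h4

variable {m : ℕ} {a b : F}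

/-- The class-preservation criterion over any quadratic extension. -/
theorem preserves_ext_iff (h2 : (2 : F) ≠ 0)
    (hab : ∀ z₁ z₂ : F, z₁ ^ 2 + a * z₁ * z₂ + b * z₂ ^ 2 = 0 → z₁ = 0 ∧ z₂ = 0)
    (g : GL ((Fin m ⊕ Fin m) ⊕ Fin 2) F) (c : Fˣ)
    (hc : ∀ v, quadFormMinus m F a b ((g : Matrix ((Fin m ⊕ Fin m) ⊕ Fin 2) ((Fin m ⊕ Fin m) ⊕ Fin 2) F) *ᵥ v) = (c : F) * quadFormMinus m F a b v)
    {K : Type*} [Field K] [Algebra F K] (hK : finrank F K = 2) :
    PreservesSingularClasses (quadFormMinus m K (algebraMap F K a) (algebraMap F K b))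
      ((g : Matrix ((Fin m ⊕ Fin m) ⊕ Fin 2) ((Fin m ⊕ Fin m) ⊕ Fin 2) F).map (algebraMap F K)) ↔ (g : Matrix ((Fin m ⊕ Fin m) ⊕ Fin 2) ((Fin m ⊕ Fin m) ⊕ Fin 2) F).det = (c : F) ^ (m + 1) := by
  have hfd : FiniteDimensional F K := Module.finite_of_finrank_pos (by omega)
  have hfin : Finite K := Module.finite_of_finite F
  let : Fintype K := Fintype.ofFinite K
  have hinj := (algebraMap F K).injective
  have h2K : (2 : K) ≠ 0 := by
    intro h
    apply h2
    apply hinj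
    rw [map_ofNat, h, map_zero]
  obtain ⟨ρ, hρ⟩ := exists_root h2 hab hK
  obtain ⟨U, hU, hUm⟩ := exists_ts_minus _ _ ρ hρ m
  let gK : GL ((Fin m ⊕ Fin m) ⊕ Fin 2) K := Matrix.GeneralLinearGroup.map (algebraMap F K) g
  let cK : Kˣ := Units.map (algebraMap F K).toMonoidHom c
  have h1 := preserves_iff (Q := minusForm m K (algebraMap F K a) (algebraMap F K b)) (nondeg_ext hab m) h2K
    (m := m + 1) (by simp; omega) hU hUm gK cK (sim_ext h2 (g := (g : Matrix ((Fin m ⊕ Fin m) ⊕ Fin 2) ((Fin m ⊕ Fin m) ⊕ Fin 2) F)) hc)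
  have h3 : ((gK : GL ((Fin m ⊕ Fin m) ⊕ Fin 2) K) : Matrix ((Fin m ⊕ Fin m) ⊕ Fin 2) ((Fin m ⊕ Fin m) ⊕ Fin 2) K).det = algebraMap F K (g : Matrix ((Fin m ⊕ Fin m) ⊕ Fin 2) ((Fin m ⊕ Fin m) ⊕ Fin 2) F).det := by
    show ((g : Matrix ((Fin m ⊕ Fin m) ⊕ Fin 2) ((Fin m ⊕ Fin m) ⊕ Fin 2) F).map (algebraMap F K)).det = _
    exact (RingHom.map_det _ _).symm
  refine h1.trans ?_
  rw [h3]
  show algebraMap F K _ = (algebraMap F K (c : F)) ^ (m + 1) ↔ _
  rw [← map_pow]
  exact hinj.eq_iff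

/-- There is a quadratic extension. -/
theorem exists_ext {a b : F} (hab : ∀ z₁ z₂ : F, z₁ ^ 2 + a * z₁ * z₂ + b * z₂ ^ 2 = 0 → z₁ = 0 ∧ z₂ = 0) :
    ∃ (K : Type u) (_ : Field K) (_ : Algebra F K), finrank F K = 2 := by
  let f : Polynomial F := Polynomial.X ^ 2 + Polynomial.C a * Polynomial.X + Polynomial.C b
  have hdeg : f.natDegree = 2 := by
    show (Polynomial.X ^ 2 + Polynomial.C a * Polynomial.X + Polynomial.C b : Polynomial F).natDegree = 2
    compute_degree!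
  have hmon : f.Monic := by
    show (Polynomial.X ^ 2 + Polynomial.C a * Polynomial.X + Polynomial.C b : Polynomial F).Monic
    monicity!
  have hirr : Irreducible f := by
    rw [hmon.irreducible_iff_roots_eq_zero_of_degree_le_three (by omega) (by omega)]
    rw [Multiset.eq_zero_iff_forall_notMem]
    intro r hr
    have h := (Polynomial.mem_roots'.1 hr).2
    have h0 : r ^ 2 + a * r + b = 0 := by
      simpa [f, Polynomial.IsRoot] using h
    have := hab r 1 (by linear_combination h0)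
    exact one_ne_zero this.2
  have : Fact (Irreducible f) := ⟨hirr⟩
  refine ⟨AdjoinRoot f, inferInstance, inferInstance, ?_⟩
  rw [(AdjoinRoot.powerBasis hirr.ne_zero).finrank, AdjoinRoot.powerBasis_dim, hdeg]

/-- The criterion for the minus form. -/
theorem preserves_minus_iff (h2 : (2 : F) ≠ 0)
    (hab : ∀ z₁ z₂ : F, z₁ ^ 2 + a * z₁ * z₂ + b * z₂ ^ 2 = 0 → z₁ = 0 ∧ z₂ = 0)
    (g : GL ((Fin m ⊕ Fin m) ⊕ Fin 2) F) (c : Fˣ)
    (hc : ∀ v, quadFormMinus m F a b ((g : Matrix ((Fin m ⊕ Fin m) ⊕ Fin 2) ((Fin m ⊕ Fin m) ⊕ Fin 2) F) *ᵥ v) = (c : F) * quadFormMinus m F a b v) :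
    PreservesSingularClassesMinus m a b (g : Matrix ((Fin m ⊕ Fin m) ⊕ Fin 2) ((Fin m ⊕ Fin m) ⊕ Fin 2) F) ↔ (g : Matrix ((Fin m ⊕ Fin m) ⊕ Fin 2) ((Fin m ⊕ Fin m) ⊕ Fin 2) F).det = (c : F) ^ (m + 1) := by
  constructor
  · rintro ⟨K, fK, aK, hK, hP⟩
    exact (preserves_ext_iff h2 hab g c hc hK).1 hP
  · intro h
    obtain ⟨K, fK, aK, hK⟩ := exists_ext hab
    exact ⟨K, fK, aK, hK, (preserves_ext_iff h2 hab g c hc hK).2 h⟩

theorem card_minus (m : ℕ) : Fintype.card ((Fin m ⊕ Fin m) ⊕ Fin 2) = 2 * (m + 1) := by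
  simp
  omega

/-- The inner-diagonal group of `PΩ⁻`. -/
theorem inndiag_minus_eq (h2 : (2 : F) ≠ 0) 
    (hab : ∀ z₁ z₂ : F, z₁ ^ 2 + a * z₁ * z₂ + b * z₂ ^ 2 = 0 → z₁ = 0 ∧ z₂ = 0)
    (hv : ∃ v, (minusForm m F a b) v ≠ 0) :
    inndiagPOmegaMinus m F a b = DG hv (minusForm_nondeg m hab) h2 (card_minus m) := by
  apply autSubgroupOf_eq
  intro β
  constructor
  · rintro ⟨g, hg, hp, hi⟩
    exact ⟨⟨g, hg⟩, (mem_kerε_iff hv (minusForm_nondeg m hab) h2 (card_minus m) ⟨g, hg⟩).2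
      ((preserves_minus_iff h2 hab g (mult (minusForm m F a b) hv ⟨g, hg⟩)
        (mult_spec (minusForm m F a b) hv ⟨g, hg⟩)).1 hp),
      eq_Phi_of_induced _ ⟨g, hg⟩ hi⟩
  · rintro ⟨g, hg, rfl⟩
    exact ⟨g.1, g.2, (preserves_minus_iff h2 hab g.1 (mult (minusForm m F a b) hv g)
        (mult_spec (minusForm m F a b) hv g)).2
        ((mem_kerε_iff hv (minusForm_nondeg m hab) h2 (card_minus m) g).1 hg), isInduced_Phi _ g⟩

end minus

end Cfsg.Agent.Lib.OutO.Forms
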